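import Mathlib
import Cfsg.Agent.Helper43.OrthEven

set_option autoImplicit false

/-!
# Anisotropic planes over finite fields and the minus type (helper43)

* `exists_plane_coords` : any two anisotropic binary quadratic forms over a finite field are
  isometric (coordinate form: from `x² + x y + ζ y²` to `z₁² + a z₁ z₂ + c z₂²`);
* `exists_minus_of_not_hasTS'` : recognition of the minus type with prescribed anisotropic part;
* `equiv_of_isometry_map`, `glue_plus_minus`, `glue_minus_plus` : the orthogonal sum of a plus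
  space and a minus space is a minus space.
-/

namespace Cfsg.Agent.Helper43.OrthEven

open Polynomial Matrix Module Cfsg.Agent.Helper43.OrthStd

section Plane

variable {F : Type*} [Field F] [Finite F]

theorem exists_plane_coords (ζ a c : F) (hζ : ∀ t : F, t ^ 2 + t + ζ ≠ 0)
    (hac : ∀ z₁ z₂ : F, z₁ ^ 2 + a * z₁ * z₂ + c * z₂ ^ 2 = 0 → z₁ = 0 ∧ z₂ = 0) :
    ∃ x y : F, 2 * x + y = a ∧ x ^ 2 + x * y + ζ * y ^ 2 = c := by
  classical
  have hD := disc_ne_zero a c hac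
  by_cases h2 : (2 : F) = 0
  · -- characteristic two
    have h4 : (4 : F) = 0 := by
      have : (4 : F) = 2 * 2 := by norm_num
      rw [this, h2, mul_zero]
    have ha : a ≠ 0 := by
      intro h
      apply hD
      rw [h, h4]
      ring
    let ℘ : F →+ F :=
      { toFun := fun s => s ^ 2 + s
        map_zero' := by ring
        map_add' := fun s t => by linear_combination (s * t) * h2 }
    have hker : Nat.card ↥℘.ker = 2 := by
      rw [Nat.card_eq_two_iff]
      refine ⟨⟨0, by rw [AddMonoidHom.mem_ker]; exact map_zero ℘⟩,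
        ⟨1, by
          rw [AddMonoidHom.mem_ker]
          show (1 : F) ^ 2 + 1 = 0
          linear_combination h2⟩, ?_, ?_⟩
      · intro h
        have := congrArg Subtype.val h
        exact zero_ne_one this
      · ext ⟨s, hs⟩
        simp only [Set.mem_insert_iff, Set.mem_singleton_iff, Set.mem_univ, iff_true]
        rw [AddMonoidHom.mem_ker] at hs
        have hs' : s ^ 2 + s = 0 := hs
        have h3 : s * (s - 1) = 0 := by linear_combination hs' - s * h2
        rcases mul_eq_zero.mp h3 with h | h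
        · left
          exact Subtype.ext h
        · right
          exact Subtype.ext (sub_eq_zero.mp h)
    have hidx : ℘.range.index = 2 := by
      have h5 := AddSubgroup.card_mul_index ℘.ker
      have h6 := AddSubgroup.card_mul_index ℘.range
      rw [AddSubgroup.index_ker, hker] at h5
      have hpos : 0 < Nat.card ↥℘.range := Nat.card_pos
      rw [← h5, mul_comm 2] at h6
      exact Nat.eq_of_mul_eq_mul_left hpos h6
    have hζ' : ζ ∉ ℘.range := by
      rintro ⟨s, hs⟩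
      apply hζ s
      have hs' : s ^ 2 + s = ζ := hs
      linear_combination hs' + ζ * h2
    have hc' : c / a ^ 2 ∉ ℘.range := by
      rintro ⟨s, hs⟩
      have hs' : s ^ 2 + s = c / a ^ 2 := hs
      have h7 : c = a ^ 2 * (s ^ 2 + s) := by
        rw [hs']
        field_simp
      have h8 := (hac (a * s) 1 (by rw [h7]; linear_combination (a ^ 2 * s ^ 2 + a ^ 2 * s) * h2)).2
      exact one_ne_zero h8
    have hmem : c / a ^ 2 + ζ ∈ ℘.range :=
      (AddSubgroup.add_mem_iff_of_index_two hidx).mpr ⟨fun h => absurd h hc', fun h => absurd h hζ'⟩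
    obtain ⟨s, hs⟩ := hmem
    have hs' : s ^ 2 + s = c / a ^ 2 + ζ := hs
    refine ⟨a * s, a, by linear_combination (a * s) * h2, ?_⟩
    have h9 : a ^ 2 * (s ^ 2 + s) = c + a ^ 2 * ζ := by
      rw [hs']
      field_simp
    linear_combination h9 + (a ^ 2 * ζ) * h2
  · -- odd characteristic
    have := Fintype.ofFinite F
    have hd₁ : ¬ IsSquare (1 - 4 * ζ) := by
      rintro ⟨s, hs⟩
      apply hζ ((s - 1) / 2)
      field_simp
      linear_combination -hs
    have hd₂ : ¬ IsSquare (a ^ 2 - 4 * c) := by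
      rintro ⟨s, hs⟩
      have h3 := (hac ((s - a) / 2) 1 (by
        field_simp
        linear_combination -hs)).2
      exact one_ne_zero h3
    have hd₁0 : (1 - 4 * ζ) ≠ 0 := fun h => hd₁ (by rw [h]; exact ⟨0, by ring⟩)
    have hprod : IsSquare ((1 - 4 * ζ) * (a ^ 2 - 4 * c)) := by
      rw [← quadraticChar_one_iff_isSquare (mul_ne_zero hd₁0 hD), map_mul,
        quadraticChar_neg_one_iff_not_isSquare.mpr hd₁,
        quadraticChar_neg_one_iff_not_isSquare.mpr hd₂]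
      norm_num
    obtain ⟨w, hw⟩ := hprod
    refine ⟨a / 2 + w / (2 * (1 - 4 * ζ)), -w / (1 - 4 * ζ), ?_, ?_⟩
    · field_simp
      ring
    · field_simp
      linear_combination (1 - 4 * ζ) * hw

end Plane

section Recog

variable {F : Type*} [Field F]

/-- recognition of the minus type with prescribed anisotropic binary part -/
theorem exists_minus_of_not_hasTS' [Finite F] {V : Type*} [AddCommGroup V] [Module F V]
    [FiniteDimensional F V] {m : ℕ} (hm : 1 ≤ m) (hV : Module.finrank F V = 2 * m)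
    (Q : QuadraticForm F V) (hQ : PolarNondeg Q) (hTS : ¬ HasTS Q m) (a c : F)
    (hac : ∀ z₁ z₂ : F, z₁ ^ 2 + a * z₁ * z₂ + c * z₂ ^ 2 = 0 → z₁ = 0 ∧ z₂ = 0) :
    ∃ Ψ : ((Fin (m - 1) ⊕ Fin (m - 1)) ⊕ Fin 2 → F) ≃ₗ[F] V,
      ∀ z, Q (Ψ z) = Cfsg.quadFormMinus (m - 1) F a c z := by
  classical
  have hQ' : (QuadraticMap.polarBilin Q).Nondegenerate := by
    refine ⟨fun v hv => hQ v hv, fun v hv => hQ v (fun w => ?_)⟩
    rw [QuadraticMap.polar_comm]
    exact hv w
  rcases Cfsg.Agent.S2616.result hm hV Q hQ' with ⟨b, hs, hp, ho⟩ |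
    ⟨b, ζ, hζ, hs, hp, ho, hz, h0, h01, h1⟩
  · exfalso
    obtain ⟨Ψ, hΨ⟩ := plus_of_basis hV Q b hs hp ho
    apply hTS
    obtain ⟨U, hU, hU0⟩ := hasTS_plus (F := F) m
    exact hasTS_equiv Q (⇑(plusQF m F)) Ψ hΨ ⟨U, hU, hU0⟩
  · obtain ⟨x, y, hxy, hxyc⟩ := exists_plane_coords ζ a c hζ hac
    let b' : (Fin (m - 1) ⊕ Fin (m - 1)) ⊕ Fin 2 → V :=
      Function.update (fun s => b s) (Sum.inr 1) (x • b (Sum.inr 0) + y • b (Sum.inr 1))
    have hb'l : ∀ s, b' (Sum.inl s) = b (Sum.inl s) := by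
      intro s
      exact Function.update_of_ne (by simp) _ _
    have hb'0 : b' (Sum.inr 0) = b (Sum.inr 0) := Function.update_of_ne (by simp) _ _
    have hb'1 : b' (Sum.inr 1) = x • b (Sum.inr 0) + y • b (Sum.inr 1) :=
      Function.update_self _ _ _
    apply minus_of_basis (n := m - 1) (by rw [hV]; omega) Q a c hac b'
    · intro i
      rw [hb'l, hb'l]
      exact hs i
    · intro i j
      rw [hb'l, hb'l]
      exact hp i j
    · intro i j
      rw [hb'l, hb'l, hb'l, hb'l]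
      exact ho i j
    · intro i k
      rw [hb'l, hb'l]
      fin_cases k
      · show QuadraticMap.polar Q _ (b' (Sum.inr 0)) = 0 ∧ QuadraticMap.polar Q _ (b' (Sum.inr 0)) = 0
        rw [hb'0]
        exact hz i 0
      · show QuadraticMap.polar Q _ (b' (Sum.inr 1)) = 0 ∧ QuadraticMap.polar Q _ (b' (Sum.inr 1)) = 0
        rw [hb'1, QuadraticMap.polar_add_right, QuadraticMap.polar_add_right,
          QuadraticMap.polar_smul_right, QuadraticMap.polar_smul_right,
          QuadraticMap.polar_smul_right, QuadraticMap.polar_smul_right, (hz i 0).1, (hz i 0).2,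
          (hz i 1).1, (hz i 1).2]
        simp
    · rw [hb'0]
      exact h0
    · rw [hb'0, hb'1, QuadraticMap.polar_add_right, QuadraticMap.polar_smul_right,
        QuadraticMap.polar_smul_right, QuadraticMap.polar_self, h0, h01]
      simp only [smul_eq_mul, nsmul_eq_mul, Nat.cast_ofNat, mul_one]
      linear_combination hxy
    · rw [hb'1, QuadraticMap.map_add (⇑Q) (x • b (Sum.inr 0)) (y • b (Sum.inr 1)),
        QuadraticMap.map_smul, QuadraticMap.map_smul,
        QuadraticMap.polar_smul_left, QuadraticMap.polar_smul_right, h0, h01, h1]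
      simp only [smul_eq_mul, mul_one]
      linear_combination hxyc

/-- an isometric linear map from a nondegenerate standard space of the right dimension is an
isomorphism -/
theorem equiv_of_isometry_map {ι : Type*} [Fintype ι] {V : Type*} [AddCommGroup V]
    [Module F V] [FiniteDimensional F V] (q₀ : QuadraticForm F (ι → F)) (hq₀ : PolarNondeg q₀)
    (Q : QuadraticForm F V) (hdim : Module.finrank F V = Fintype.card ι)
    (L : (ι → F) →ₗ[F] V) (hQL : ∀ z, Q (L z) = q₀ z) :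
    ∃ Ψ : (ι → F) ≃ₗ[F] V, ∀ z, Q (Ψ z) = q₀ z := by
  have hinj : Function.Injective L := by
    rw [injective_iff_map_eq_zero]
    intro z hz
    apply hq₀
    intro w
    have h3 : QuadraticMap.polar q₀ z w = QuadraticMap.polar Q (L z) (L w) := by
      unfold QuadraticMap.polar
      rw [← hQL, ← hQL, ← hQL, map_add]
    rw [h3, hz, QuadraticMap.polar_zero_left]
  have hdim' : Module.finrank F (ι → F) = Module.finrank F V := by
    rw [hdim, Module.finrank_fintype_fun_eq_card]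
  refine ⟨LinearMap.linearEquivOfInjective L hinj hdim', ?_⟩
  intro z
  rw [LinearMap.linearEquivOfInjective_apply]
  exact hQL z

/-- the orthogonal sum of a plus space and a minus space is a minus space -/
theorem glue_plus_minus [Finite F] {V₁ V₂ : Type*} [AddCommGroup V₁] [Module F V₁]
    [FiniteDimensional F V₁] [AddCommGroup V₂] [Module F V₂] [FiniteDimensional F V₂]
    (Q₁ : QuadraticForm F V₁) (Q₂ : QuadraticForm F V₂) {k n : ℕ} (a c : F)
    (hac : ∀ z₁ z₂ : F, z₁ ^ 2 + a * z₁ * z₂ + c * z₂ ^ 2 = 0 → z₁ = 0 ∧ z₂ = 0)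
    (Ψ₁ : (Fin k ⊕ Fin k → F) ≃ₗ[F] V₁) (hΨ₁ : ∀ z, Q₁ (Ψ₁ z) = Cfsg.quadFormPlus k F z)
    (Ψ₂ : ((Fin n ⊕ Fin n) ⊕ Fin 2 → F) ≃ₗ[F] V₂)
    (hΨ₂ : ∀ z, Q₂ (Ψ₂ z) = Cfsg.quadFormMinus n F a c z) :
    ∃ Ψ : ((Fin (k + n) ⊕ Fin (k + n)) ⊕ Fin 2 → F) ≃ₗ[F] V₁ × V₂,
      ∀ z, (Q₁.prod Q₂) (Ψ z) = Cfsg.quadFormMinus (k + n) F a c z := by
  let f₁ : Fin k ⊕ Fin k → (Fin (k + n) ⊕ Fin (k + n)) ⊕ Fin 2 :=
    Sum.elim (fun i => Sum.inl (Sum.inl (Fin.castAdd n i)))
      (fun i => Sum.inl (Sum.inr (Fin.castAdd n i)))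
  let f₂ : (Fin n ⊕ Fin n) ⊕ Fin 2 → (Fin (k + n) ⊕ Fin (k + n)) ⊕ Fin 2 :=
    Sum.elim (Sum.elim (fun j => Sum.inl (Sum.inl (Fin.natAdd k j)))
      (fun j => Sum.inl (Sum.inr (Fin.natAdd k j)))) (fun t => Sum.inr t)
  let L : ((Fin (k + n) ⊕ Fin (k + n)) ⊕ Fin 2 → F) →ₗ[F] V₁ × V₂ :=
    ((Ψ₁ : (Fin k ⊕ Fin k → F) →ₗ[F] V₁).comp (LinearMap.funLeft F F f₁)).prod
      ((Ψ₂ : ((Fin n ⊕ Fin n) ⊕ Fin 2 → F) →ₗ[F] V₂).comp (LinearMap.funLeft F F f₂))
  have hL : ∀ z, L z = (Ψ₁ (fun s => z (f₁ s)), Ψ₂ (fun s => z (f₂ s))) := fun z => rfl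
  have hdim : Module.finrank F (V₁ × V₂) =
      Fintype.card ((Fin (k + n) ⊕ Fin (k + n)) ⊕ Fin 2) := by
    rw [Module.finrank_prod, ← LinearEquiv.finrank_eq Ψ₁, ← LinearEquiv.finrank_eq Ψ₂,
      Module.finrank_fintype_fun_eq_card, Module.finrank_fintype_fun_eq_card]
    simp only [Fintype.card_sum, Fintype.card_fin]
    ring
  apply equiv_of_isometry_map (minusQF (k + n) F a c)
    (polarNondeg_of_nondegenerate _ (minusQF_nondeg (k + n) a c hac)) (Q₁.prod Q₂) hdim L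
  intro z
  rw [hL, QuadraticMap.prod_apply, hΨ₁, hΨ₂]
  show Cfsg.quadFormPlus k F (fun s => z (f₁ s)) + Cfsg.quadFormMinus n F a c (fun s => z (f₂ s)) =
    Cfsg.quadFormMinus (k + n) F a c z
  unfold Cfsg.quadFormPlus Cfsg.quadFormMinus
  rw [Fin.sum_univ_add]
  simp only [f₁, f₂, Sum.elim_inl, Sum.elim_inr]
  ring

/-- the orthogonal sum of a minus space and a plus space is a minus space -/
theorem glue_minus_plus [Finite F] {V₁ V₂ : Type*} [AddCommGroup V₁] [Module F V₁]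
    [FiniteDimensional F V₁] [AddCommGroup V₂] [Module F V₂] [FiniteDimensional F V₂]
    (Q₁ : QuadraticForm F V₁) (Q₂ : QuadraticForm F V₂) {k n : ℕ} (a c : F)
    (hac : ∀ z₁ z₂ : F, z₁ ^ 2 + a * z₁ * z₂ + c * z₂ ^ 2 = 0 → z₁ = 0 ∧ z₂ = 0)
    (Ψ₁ : (Fin k ⊕ Fin k → F) ≃ₗ[F] V₁) (hΨ₁ : ∀ z, Q₁ (Ψ₁ z) = Cfsg.quadFormPlus k F z)
    (Ψ₂ : ((Fin n ⊕ Fin n) ⊕ Fin 2 → F) ≃ₗ[F] V₂)
    (hΨ₂ : ∀ z, Q₂ (Ψ₂ z) = Cfsg.quadFormMinus n F a c z) :
    ∃ Ψ : ((Fin (k + n) ⊕ Fin (k + n)) ⊕ Fin 2 → F) ≃ₗ[F] V₂ × V₁,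
      ∀ z, (Q₂.prod Q₁) (Ψ z) = Cfsg.quadFormMinus (k + n) F a c z := by
  obtain ⟨Ψ, hΨ⟩ := glue_plus_minus Q₁ Q₂ a c hac Ψ₁ hΨ₁ Ψ₂ hΨ₂
  refine ⟨Ψ.trans (LinearEquiv.prodComm F V₁ V₂), ?_⟩
  intro z
  rw [← hΨ z, QuadraticMap.prod_apply, QuadraticMap.prod_apply]
  show Q₂ (Ψ z).2 + Q₁ (Ψ z).1 = _
  rw [add_comm]

end Recog

end Cfsg.Agent.Helper43.OrthEven
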