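/-
Helper43 library: the two families of maximal totally singular subspaces of a hyperbolic
quadratic space (any field, any characteristic), in an abstract setting:
a function `Q : V → F` with `Q (x + y) = Q x + Q y + B x y`, `Q (c x) = c² Q x`,
`B` a non-degenerate bilinear form, `dim V = 2 m`.
-/
import Mathlib

set_option autoImplicit false

namespace Cfsg.Agent.Helper43
namespace TwoFam

open Module

variable {F V : Type*} [Field F] [AddCommGroup V] [Module F V]

/-- an abstract non-degenerate quadratic space of dimension `2 m` -/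
structure QSpace (Q : V → F) (B : LinearMap.BilinForm F V) (m : ℕ) : Prop where
  polar : ∀ x y, Q (x + y) = Q x + Q y + B x y
  smul : ∀ (c : F) x, Q (c • x) = c * c * Q x
  nondeg : B.Nondegenerate
  dim : finrank F V = 2 * m

/-- totally singular of dimension `m` -/
def MTS (Q : V → F) (m : ℕ) (U : Submodule F V) : Prop :=
  finrank F U = m ∧ ∀ u ∈ U, Q u = 0

theorem mem_orth_sup_span {B : LinearMap.BilinForm F V} {H : Submodule F V} {w x : V}
    (hx : x ∈ B.orthogonal H) (hxw : B w x = 0) :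
    x ∈ B.orthogonal (H ⊔ Submodule.span F {w}) := by
  rw [LinearMap.BilinForm.mem_orthogonal_iff] at hx ⊢
  intro n hn
  obtain ⟨a, ha, b, hb, rfl⟩ := Submodule.mem_sup.1 hn
  obtain ⟨c, rfl⟩ := Submodule.mem_span_singleton.1 hb
  simp [hx a ha, hxw]

theorem sup_span_eq [FiniteDimensional F V] {H W : Submodule F V} (hHW : H ≤ W)
    (hf : finrank F H + 1 = finrank F W) {w : V} (hw : w ∈ W) (hwH : w ∉ H) :
    H ⊔ Submodule.span F {w} = W := by
  apply Submodule.eq_of_le_of_finrank_le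
  · exact sup_le hHW ((Submodule.span_singleton_le_iff_mem _ _).2 hw)
  · have hlt : H < H ⊔ Submodule.span F {w} := by
      refine lt_of_le_of_ne le_sup_left ?_
      intro heq
      apply hwH
      rw [heq]
      exact Submodule.mem_sup_right (Submodule.mem_span_singleton_self w)
    have := Submodule.finrank_lt_finrank_of_lt hlt
    omega

theorem finrank_inf_le_succ [FiniteDimensional F V] (U : Submodule F V) {H W : Submodule F V}
    (hHW : H ≤ W) (hf : finrank F H + 1 = finrank F W) :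
    finrank F ↥(U ⊓ W) ≤ finrank F ↥(U ⊓ H) + 1 := by
  have h1 := Submodule.finrank_sup_add_finrank_inf_eq (U ⊓ W) H
  have h2 : (U ⊓ W) ⊓ H = U ⊓ H := by rw [inf_assoc, inf_eq_right.2 hHW]
  rw [h2] at h1
  have h3 : finrank F ↥((U ⊓ W) ⊔ H) ≤ finrank F W :=
    Submodule.finrank_mono (sup_le inf_le_right hHW)
  omega

theorem finrank_sup_span [FiniteDimensional F V] {W : Submodule F V} {x : V} (hx : x ∉ W) :
    finrank F ↥(W ⊔ Submodule.span F {x}) = finrank F W + 1 := by
  have h1 := Submodule.finrank_sup_add_finrank_inf_eq W (Submodule.span F {x})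
  have hx0 : x ≠ 0 := fun h0 => hx (h0 ▸ W.zero_mem)
  have h2 : W ⊓ Submodule.span F {x} = ⊥ := by
    rw [← disjoint_iff, Submodule.disjoint_span_singleton]
    intro hxW
    exact absurd hxW hx
  rw [h2, finrank_bot, finrank_span_singleton hx0] at h1
  omega

namespace QSpace

variable {Q : V → F} {B : LinearMap.BilinForm F V} {m : ℕ} (h : QSpace Q B m)
include h

theorem symm (x y : V) : B x y = B y x := by
  have h1 := h.polar x y
  have h2 := h.polar y x
  rw [add_comm y x, h1] at h2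
  linear_combination h2

theorem zero : Q 0 = 0 := by
  have := h.smul 0 0
  simpa using this

theorem B_of_ts {U : Submodule F V} (hU : ∀ u ∈ U, Q u = 0) {x y : V} (hx : x ∈ U)
    (hy : y ∈ U) : B x y = 0 := by
  have h1 := h.polar x y
  rw [hU _ (U.add_mem hx hy), hU x hx, hU y hy] at h1
  simpa using h1.symm

theorem le_orth_of_ts {U : Submodule F V} (hU : ∀ u ∈ U, Q u = 0) : U ≤ B.orthogonal U := by
  intro x hx
  rw [LinearMap.BilinForm.mem_orthogonal_iff]
  intro n hn
  exact h.B_of_ts hU hn hx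

theorem le_orth_of_le {H U : Submodule F V} (hU : ∀ u ∈ U, Q u = 0) (hHU : H ≤ U) :
    U ≤ B.orthogonal H :=
  (h.le_orth_of_ts hU).trans (LinearMap.BilinForm.orthogonal_le hHU)

/-- a sum of a totally singular space and an orthogonal singular vector is totally singular -/
theorem ts_sup_span {H : Submodule F V} (hH : ∀ u ∈ H, Q u = 0) {x : V} (hx : Q x = 0)
    (hxH : x ∈ B.orthogonal H) : ∀ u ∈ H ⊔ Submodule.span F {x}, Q u = 0 := by
  intro u hu
  obtain ⟨a, ha, b, hb, rfl⟩ := Submodule.mem_sup.1 hu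
  obtain ⟨c, rfl⟩ := Submodule.mem_span_singleton.1 hb
  rw [h.polar, hH a ha, h.smul, hx]
  rw [LinearMap.BilinForm.mem_orthogonal_iff] at hxH
  simp [hxH a ha]

variable [FiniteDimensional F V]

theorem finrank_orth (W : Submodule F V) :
    finrank F (B.orthogonal W) = 2 * m - finrank F W := by
  rw [LinearMap.BilinForm.finrank_orthogonal h.nondeg W, h.dim]

theorem finrank_le_two_mul (W : Submodule F V) : finrank F W ≤ 2 * m := by
  rw [← h.dim]
  exact Submodule.finrank_le W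

theorem orth_eq {U : Submodule F V} (hU : MTS Q m U) : B.orthogonal U = U := by
  symm
  apply Submodule.eq_of_le_of_finrank_eq (h.le_orth_of_ts hU.2)
  rw [h.finrank_orth, hU.1]
  omega

/-- totally singular subspaces have dimension at most `m` -/
theorem finrank_ts_le {U : Submodule F V} (hU : ∀ u ∈ U, Q u = 0) : finrank F U ≤ m := by
  have h1 := Submodule.finrank_mono (h.le_orth_of_ts hU)
  rw [h.finrank_orth] at h1
  have h2 := h.finrank_le_two_mul U
  omega

theorem step_aux1 {U W W' : Submodule F V} (hU : MTS Q m U) (hW : MTS Q m W)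
    (hW' : MTS Q m W') (hadj : finrank F ↥(W ⊓ W') + 1 = m)
    (hlt : finrank F ↥(U ⊓ (W ⊓ W')) < finrank F ↥(U ⊓ W)) :
    U ⊓ W' ≤ U ⊓ (W ⊓ W') := by
  have hne : ¬ (U ⊓ W ≤ U ⊓ (W ⊓ W')) := by
    intro hle
    have := Submodule.finrank_mono hle
    omega
  obtain ⟨x, hx, hxH⟩ := SetLike.not_le_iff_exists.1 hne
  have hxU : x ∈ U := hx.1
  have hxW : x ∈ W := hx.2
  have hxH' : x ∉ W ⊓ W' := fun hh => hxH ⟨hxU, hh⟩
  have hsup : (W ⊓ W') ⊔ Submodule.span F {x} = W :=
    sup_span_eq inf_le_left (by rw [hadj, hW.1]) hxW hxH'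
  intro y hy
  have hyU : y ∈ U := hy.1
  have hyW' : y ∈ W' := hy.2
  have h1 : y ∈ B.orthogonal (W ⊓ W') := h.le_orth_of_le hW'.2 inf_le_right hyW'
  have h2 : B x y = 0 := h.B_of_ts hU.2 hxU hyU
  have h3 := mem_orth_sup_span h1 h2
  rw [hsup, h.orth_eq hW] at h3
  exact ⟨hyU, h3, hyW'⟩

theorem step_aux2 {U W W' : Submodule F V} (hU : MTS Q m U) (hW : MTS Q m W)
    (hW' : MTS Q m W') (hadj : finrank F ↥(W ⊓ W') + 1 = m)
    (h1 : finrank F ↥(U ⊓ W) = finrank F ↥(U ⊓ (W ⊓ W')))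
    (h2 : finrank F ↥(U ⊓ W') = finrank F ↥(U ⊓ (W ⊓ W'))) : False := by
  obtain ⟨H, hH⟩ : ∃ H, H = W ⊓ W' := ⟨_, rfl⟩
  rw [← hH] at hadj h1 h2
  have hHW : H ≤ W := hH ▸ inf_le_left
  have hHW' : H ≤ W' := hH ▸ inf_le_right
  have e1 : U ⊓ H = U ⊓ W :=
    Submodule.eq_of_le_of_finrank_eq (inf_le_inf_left U hHW) h1.symm
  have e2 : U ⊓ H = U ⊓ W' :=
    Submodule.eq_of_le_of_finrank_eq (inf_le_inf_left U hHW') h2.symm
  -- the space K
  have hK1 : finrank F (B.orthogonal (U ⊔ H)) = finrank F ↥(U ⊓ H) + 1 := by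
    rw [h.finrank_orth]
    have := Submodule.finrank_sup_add_finrank_inf_eq U H
    have := hU.1
    have := h.finrank_le_two_mul (U ⊔ H)
    omega
  have hKU : B.orthogonal (U ⊔ H) ≤ U := by
    have := LinearMap.BilinForm.orthogonal_le (B := B) (le_sup_left : U ≤ U ⊔ H)
    rwa [h.orth_eq hU] at this
  have hKH : B.orthogonal (U ⊔ H) ≤ B.orthogonal H :=
    LinearMap.BilinForm.orthogonal_le le_sup_right
  have hne : ¬ (B.orthogonal (U ⊔ H) ≤ H) := by
    intro hle
    have := Submodule.finrank_mono (le_inf hKU hle)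
    omega
  obtain ⟨u, hu, huH⟩ := SetLike.not_le_iff_exists.1 hne
  have huU : u ∈ U := hKU hu
  -- orth H = W ⊔ W'
  have horth : W ⊔ W' = B.orthogonal H := by
    apply Submodule.eq_of_le_of_finrank_le
    · exact sup_le (h.le_orth_of_le hW.2 hHW) (h.le_orth_of_le hW'.2 hHW')
    · rw [h.finrank_orth]
      have := Submodule.finrank_sup_add_finrank_inf_eq W W'
      rw [← hH] at this
      have := hW.1
      have := hW'.1
      omega
  have hu' : u ∈ W ⊔ W' := horth ▸ hKH hu
  obtain ⟨w, hw, w', hw', rfl⟩ := Submodule.mem_sup.1 hu'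
  have hQ := h.polar w w'
  rw [hU.2 _ huU, hW.2 w hw, hW'.2 w' hw'] at hQ
  have hB : B w w' = 0 := by simpa using hQ.symm
  by_cases hwH : w ∈ H
  · have : w + w' ∈ U ⊓ W' := ⟨huU, W'.add_mem (hHW' hwH) hw'⟩
    rw [← e2] at this
    exact huH this.2
  · have hsup : H ⊔ Submodule.span F {w} = W :=
      sup_span_eq hHW (by rw [hadj, hW.1]) hw hwH
    have h3 : w' ∈ B.orthogonal H := h.le_orth_of_le hW'.2 hHW' hw'
    have h4 := mem_orth_sup_span h3 hB
    rw [hsup, h.orth_eq hW] at h4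
    have : w + w' ∈ U ⊓ W := ⟨huU, W.add_mem hw h4⟩
    rw [← e1] at this
    exact huH this.2

/-- adjacent maximal totally singular subspaces lie in different families -/
theorem step {U W W' : Submodule F V} (hU : MTS Q m U) (hW : MTS Q m W) (hW' : MTS Q m W')
    (hadj : finrank F ↥(W ⊓ W') + 1 = m) :
    Odd ((m - finrank F ↥(U ⊓ W)) + (m - finrank F ↥(U ⊓ W'))) := by
  have hadj' : finrank F ↥(W' ⊓ W) + 1 = m := by rw [inf_comm]; exact hadj
  have hb1 : finrank F ↥(U ⊓ (W ⊓ W')) ≤ finrank F ↥(U ⊓ W) :=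
    Submodule.finrank_mono (inf_le_inf_left U inf_le_left)
  have hb1' : finrank F ↥(U ⊓ (W ⊓ W')) ≤ finrank F ↥(U ⊓ W') :=
    Submodule.finrank_mono (inf_le_inf_left U inf_le_right)
  have hb2 : finrank F ↥(U ⊓ W) ≤ finrank F ↥(U ⊓ (W ⊓ W')) + 1 :=
    finrank_inf_le_succ U inf_le_left (by rw [hadj, hW.1])
  have hb2' : finrank F ↥(U ⊓ W') ≤ finrank F ↥(U ⊓ (W ⊓ W')) + 1 :=
    finrank_inf_le_succ U inf_le_right (by rw [hadj, hW'.1])
  have hm1 : finrank F ↥(U ⊓ W) ≤ m := hW.1 ▸ Submodule.finrank_mono inf_le_right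
  have hm1' : finrank F ↥(U ⊓ W') ≤ m := hW'.1 ▸ Submodule.finrank_mono inf_le_right
  rcases Nat.lt_or_ge (finrank F ↥(U ⊓ (W ⊓ W'))) (finrank F ↥(U ⊓ W)) with hlt | hge
  · have := Submodule.finrank_mono (h.step_aux1 hU hW hW' hadj hlt)
    rw [Nat.odd_iff]
    omega
  · rcases Nat.lt_or_ge (finrank F ↥(U ⊓ (W ⊓ W'))) (finrank F ↥(U ⊓ W')) with hlt' | hge'
    · have hlt'' : finrank F ↥(U ⊓ (W' ⊓ W)) < finrank F ↥(U ⊓ W') := by
        rw [inf_comm W' W]; exact hlt'
      have := Submodule.finrank_mono (h.step_aux1 hU hW' hW hadj' hlt'')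
      rw [inf_comm W' W] at this
      rw [Nat.odd_iff]
      omega
    · exact (h.step_aux2 hU hW hW' hadj (le_antisymm hge hb1) (le_antisymm hge' hb1')).elim

/-- from `W` one can move one step towards `X` -/
theorem exists_adjacent {W X : Submodule F V} (hW : MTS Q m W) (hX : MTS Q m X) (hne : W ≠ X) :
    ∃ W', MTS Q m W' ∧ finrank F ↥(W ⊓ W') + 1 = m ∧
      finrank F ↥(X ⊓ W) < finrank F ↥(X ⊓ W') := by
  have hnle : ¬ X ≤ W := by
    intro hle
    exact hne (Submodule.eq_of_le_of_finrank_eq hle (by rw [hW.1, hX.1])).symm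
  obtain ⟨x, hxX, hxW⟩ := SetLike.not_le_iff_exists.1 hnle
  have hfs := finrank_sup_span hxW
  have hx0 : x ≠ 0 := fun h0 => hxW (h0 ▸ W.zero_mem)
  obtain ⟨W₀, hW₀⟩ : ∃ W₀, W₀ = B.orthogonal (W ⊔ Submodule.span F {x}) := ⟨_, rfl⟩
  have hW₀W : W₀ ≤ W := by
    have := LinearMap.BilinForm.orthogonal_le (B := B)
      (le_sup_left : W ≤ W ⊔ Submodule.span F {x})
    rwa [h.orth_eq hW, ← hW₀] at this
  have hm : 1 ≤ m := by
    have := h.finrank_le_two_mul (W ⊔ Submodule.span F {x})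
    have := hW.1
    omega
  have hW₀f : finrank F W₀ + 1 = m := by
    rw [hW₀, h.finrank_orth, hfs, hW.1]
    omega
  have hxW₀ : x ∉ W₀ := fun hh => hxW (hW₀W hh)
  have hxorth : x ∈ B.orthogonal W₀ := by
    rw [LinearMap.BilinForm.mem_orthogonal_iff]
    intro n hn
    rw [hW₀, LinearMap.BilinForm.mem_orthogonal_iff] at hn
    rw [h.symm]
    exact hn x (Submodule.mem_sup_right (Submodule.mem_span_singleton_self x))
  have hW'ts : ∀ u ∈ W₀ ⊔ Submodule.span F {x}, Q u = 0 :=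
    h.ts_sup_span (fun u hu => hW.2 u (hW₀W hu)) (hX.2 x hxX) hxorth
  have hW'f : finrank F ↥(W₀ ⊔ Submodule.span F {x}) = m := by
    rw [finrank_sup_span hxW₀]
    exact hW₀f
  have hxW' : x ∈ W₀ ⊔ Submodule.span F {x} :=
    Submodule.mem_sup_right (Submodule.mem_span_singleton_self x)
  refine ⟨W₀ ⊔ Submodule.span F {x}, ⟨hW'f, hW'ts⟩, ?_, ?_⟩
  · have h1 : finrank F W₀ ≤ finrank F ↥(W ⊓ (W₀ ⊔ Submodule.span F {x})) :=
      Submodule.finrank_mono (le_inf hW₀W le_sup_left)
    have h2 : finrank F ↥(W ⊓ (W₀ ⊔ Submodule.span F {x})) < finrank F W := by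
      apply Submodule.finrank_lt_finrank_of_lt
      refine lt_of_le_of_ne inf_le_left ?_
      intro heq
      have : W ≤ W₀ ⊔ Submodule.span F {x} := by
        rw [← heq]; exact inf_le_right
      have h3 := Submodule.eq_of_le_of_finrank_eq this (by rw [hW.1, hW'f])
      exact hxW (h3 ▸ hxW')
    have := hW.1
    omega
  · apply Submodule.finrank_lt_finrank_of_lt
    refine lt_of_le_of_ne ?_ ?_
    · intro y hy
      refine ⟨hy.1, Submodule.mem_sup_left ?_⟩
      rw [hW₀]
      have h1 : y ∈ B.orthogonal W := h.le_orth_of_ts hW.2 hy.2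
      exact mem_orth_sup_span h1 (h.B_of_ts hX.2 hxX hy.1)
    · intro heq
      have : x ∈ X ⊓ W := by
        rw [heq]; exact ⟨hxX, hxW'⟩
      exact hxW this.2

/-- the parity theorem: "even codimension of the intersection" is transitive -/
theorem parity {U W X : Submodule F V} (hU : MTS Q m U) (hW : MTS Q m W) (hX : MTS Q m X) :
    Even ((m - finrank F ↥(U ⊓ W)) + (m - finrank F ↥(W ⊓ X)) + (m - finrank F ↥(U ⊓ X))) := by
  obtain ⟨n, hn⟩ : ∃ n, n = m - finrank F ↥(W ⊓ X) := ⟨_, rfl⟩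
  induction n using Nat.strong_induction_on generalizing W with
  | _ n ih =>
    by_cases hne : W = X
    · subst hne
      rw [inf_idem, hW.1, Nat.even_iff]
      omega
    · obtain ⟨W', hW', hadj, hlt⟩ := h.exists_adjacent hW hX hne
      have hle : finrank F ↥(X ⊓ W') ≤ m := hX.1 ▸ Submodule.finrank_mono inf_le_left
      have h1 := ih (m - finrank F ↥(W' ⊓ X)) (by rw [hn, inf_comm W' X, inf_comm W X]; omega)
        hW' rfl
      have h2 := h.step hU hW hW' hadj
      have h3 := h.step hX hW hW' hadj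
      rw [inf_comm W X]
      rw [inf_comm W' X] at h1
      rw [Nat.even_iff] at h1 ⊢
      rw [Nat.odd_iff] at h2 h3
      omega

/-- a totally singular subspace of dimension `m - 1` lies in a maximal one (given that some
maximal totally singular subspace of dimension `m` exists) -/
theorem exists_mts_of_le {E H : Submodule F V} (hE : MTS Q m E) (hH : ∀ u ∈ H, Q u = 0)
    (hHf : finrank F H + 1 = m) : ∃ W, MTS Q m W ∧ H ≤ W := by
  have hts : ∀ u ∈ (E ⊓ B.orthogonal H) ⊔ H, Q u = 0 := by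
    intro u hu
    obtain ⟨e, he, a, ha, rfl⟩ := Submodule.mem_sup.1 hu
    have h1 : e ∈ B.orthogonal H := he.2
    rw [LinearMap.BilinForm.mem_orthogonal_iff] at h1
    rw [h.polar, hE.2 e he.1, hH a ha, h.symm, h1 a ha]
    simp
  refine ⟨(E ⊓ B.orthogonal H) ⊔ H, ⟨le_antisymm (h.finrank_ts_le hts) ?_, hts⟩, le_sup_right⟩
  have h1 : B.orthogonal (E ⊔ H) ≤ E ⊓ B.orthogonal H := by
    refine le_inf ?_ (LinearMap.BilinForm.orthogonal_le le_sup_right)
    have := LinearMap.BilinForm.orthogonal_le (B := B) (le_sup_left : E ≤ E ⊔ H)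
    rwa [h.orth_eq hE] at this
  have h2 := Submodule.finrank_mono h1
  rw [h.finrank_orth] at h2
  have h3 := Submodule.finrank_sup_add_finrank_inf_eq E H
  have h4 := Submodule.finrank_sup_add_finrank_inf_eq (E ⊓ B.orthogonal H) H
  have h5 : finrank F ↥((E ⊓ B.orthogonal H) ⊓ H) ≤ finrank F ↥(E ⊓ H) :=
    Submodule.finrank_mono (inf_le_inf_right H inf_le_left)
  have h6 := hE.1
  have h7 := h.finrank_le_two_mul (E ⊔ H)
  omega

/-- a totally singular subspace of dimension `m - 1` lies in exactly two maximal totally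
singular subspaces -/
theorem two_mts {E H : Submodule F V} (hE : MTS Q m E) (hH : ∀ u ∈ H, Q u = 0)
    (hHf : finrank F H + 1 = m) :
    ∃ W₁ W₂, MTS Q m W₁ ∧ MTS Q m W₂ ∧ H ≤ W₁ ∧ H ≤ W₂ ∧ W₁ ≠ W₂ ∧
      ∀ W, MTS Q m W → H ≤ W → W = W₁ ∨ W = W₂ := by
  obtain ⟨W₁, hW₁, hHW₁⟩ := h.exists_mts_of_le hE hH hHf
  have hPf : finrank F (B.orthogonal H) = m + 1 := by
    rw [h.finrank_orth]
    omega
  have hW₁P : W₁ ≤ B.orthogonal H := h.le_orth_of_le hW₁.2 hHW₁
  have hn1 : ¬ W₁ ≤ H := by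
    intro hle
    have := Submodule.finrank_mono hle
    have := hW₁.1
    omega
  obtain ⟨w₁, hw₁, hw₁H⟩ := SetLike.not_le_iff_exists.1 hn1
  have hn2 : ¬ B.orthogonal H ≤ W₁ := by
    intro hle
    have := Submodule.finrank_mono hle
    have := hW₁.1
    omega
  obtain ⟨z, hz, hzW₁⟩ := SetLike.not_le_iff_exists.1 hn2
  have hsup₁ : H ⊔ Submodule.span F {w₁} = W₁ :=
    sup_span_eq hHW₁ (by rw [hHf, hW₁.1]) hw₁ hw₁H
  have hBne : B w₁ z ≠ 0 := by
    intro h0
    have := mem_orth_sup_span hz h0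
    rw [hsup₁, h.orth_eq hW₁] at this
    exact hzW₁ this
  have hw₁w₁ : B w₁ w₁ = 0 := h.B_of_ts hW₁.2 hw₁ hw₁
  obtain ⟨u, hu⟩ : ∃ u, u = z + (-(Q z / B w₁ z)) • w₁ := ⟨_, rfl⟩
  have hQu : Q u = 0 := by
    rw [hu, h.polar, h.smul, hW₁.2 w₁ hw₁, map_smul, smul_eq_mul, h.symm z w₁]
    field_simp
    ring
  have huP : u ∈ B.orthogonal H := by
    rw [hu]
    exact Submodule.add_mem _ hz (Submodule.smul_mem _ _ (hW₁P hw₁))
  have huW₁ : u ∉ W₁ := by
    intro hh
    apply hzW₁
    have : z = u - (-(Q z / B w₁ z)) • w₁ := by rw [hu]; abel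
    rw [this]
    exact W₁.sub_mem hh (W₁.smul_mem _ hw₁)
  have huH : u ∉ H := fun hh => huW₁ (hHW₁ hh)
  have hBu : B w₁ u = B w₁ z := by
    rw [hu, map_add, map_smul, hw₁w₁]
    simp
  have hW₂ : MTS Q m (H ⊔ Submodule.span F {u}) := by
    refine ⟨?_, h.ts_sup_span hH hQu huP⟩
    rw [finrank_sup_span huH, hHf]
  have huW₂ : u ∈ H ⊔ Submodule.span F {u} :=
    Submodule.mem_sup_right (Submodule.mem_span_singleton_self u)
  have hsupP : W₁ ⊔ Submodule.span F {u} = B.orthogonal H :=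
    sup_span_eq hW₁P (by rw [hPf, hW₁.1]) huP huW₁
  refine ⟨W₁, H ⊔ Submodule.span F {u}, hW₁, hW₂, hHW₁, le_sup_left, ?_, ?_⟩
  · intro heq
    exact huW₁ (heq ▸ huW₂)
  · intro W hW hHW
    by_cases hWW₁ : W = W₁
    · exact Or.inl hWW₁
    · right
      have hn3 : ¬ W ≤ H := by
        intro hle
        have := Submodule.finrank_mono hle
        have := hW.1
        omega
      obtain ⟨w, hw, hwH⟩ := SetLike.not_le_iff_exists.1 hn3
      have hsupW : H ⊔ Submodule.span F {w} = W :=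
        sup_span_eq hHW (by rw [hHf, hW.1]) hw hwH
      have hwP : w ∈ W₁ ⊔ Submodule.span F {u} := by
        rw [hsupP]
        exact h.le_orth_of_le hW.2 hHW hw
      obtain ⟨a, ha, b, hb, hab⟩ := Submodule.mem_sup.1 hwP
      obtain ⟨c, rfl⟩ := Submodule.mem_span_singleton.1 hb
      rw [← hsup₁] at ha
      obtain ⟨a', ha', b', hb', rfl⟩ := Submodule.mem_sup.1 ha
      obtain ⟨d, rfl⟩ := Submodule.mem_span_singleton.1 hb'
      have hQw := hW.2 w hw
      rw [← hab, h.polar, h.smul, hQu] at hQw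
      have hQa : Q (a' + d • w₁) = 0 :=
        hW₁.2 _ (W₁.add_mem (hHW₁ ha') (W₁.smul_mem _ hw₁))
      have huP' := huP
      rw [LinearMap.BilinForm.mem_orthogonal_iff] at huP'
      rw [hQa] at hQw
      simp only [map_add, map_smul, LinearMap.add_apply, LinearMap.smul_apply, smul_eq_mul,
        huP' a' ha', hBu] at hQw
      have hcd : c * d = 0 := by
        have h9 : c * d * B w₁ z = 0 := by
          linear_combination hQw
        rcases mul_eq_zero.1 h9 with h10 | h10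
        · exact h10
        · exact absurd h10 hBne
      rcases mul_eq_zero.1 hcd with hc | hd
      · exfalso
        apply hWW₁
        apply Submodule.eq_of_le_of_finrank_eq _ (by rw [hW.1, hW₁.1])
        rw [← hsupW]
        refine sup_le hHW₁ ((Submodule.span_singleton_le_iff_mem _ _).2 ?_)
        rw [← hab, hc, zero_smul, add_zero]
        exact W₁.add_mem (hHW₁ ha') (W₁.smul_mem _ hw₁)
      · apply Submodule.eq_of_le_of_finrank_eq _ (by rw [hW.1, hW₂.1])
        rw [← hsupW]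
        refine sup_le le_sup_left ((Submodule.span_singleton_le_iff_mem _ _).2 ?_)
        rw [← hab, hd, zero_smul, add_zero]
        exact Submodule.add_mem _ (Submodule.mem_sup_left ha')
          (Submodule.smul_mem _ _ huW₂)

theorem card_mts_ge {E H : Submodule F V} (hE : MTS Q m E) (hH : ∀ u ∈ H, Q u = 0)
    (hHf : finrank F H + 1 = m) :
    Nat.card {W : Submodule F V // finrank F W = m ∧ (∀ w ∈ W, Q w = 0) ∧ H ≤ W} = 2 := by
  obtain ⟨W₁, W₂, h1, h2, hH1, hH2, hne, hall⟩ := h.two_mts hE hH hHf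
  rw [Nat.card_eq_two_iff]
  refine ⟨⟨W₁, h1.1, h1.2, hH1⟩, ⟨W₂, h2.1, h2.2, hH2⟩, ?_, ?_⟩
  · intro heq
    exact hne (congrArg Subtype.val heq)
  · ext ⟨W, hW⟩
    simp only [Set.mem_insert_iff, Set.mem_singleton_iff, Set.mem_univ, iff_true,
      Subtype.mk.injEq]
    exact hall W ⟨hW.1, hW.2.1⟩ hW.2.2

end QSpace

end TwoFam
end Cfsg.Agent.Helper43
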