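/-
Helper43 library: hyperbolic frames in an abstract hyperbolic quadratic space: a basis of a
maximal totally singular subspace has a dual singular family; values of `Q` and `B` in a frame.
-/
import Cfsg.Agent.Helper43.TwoFam

set_option autoImplicit false

namespace Cfsg.Agent.Helper43
namespace TwoFam

open Module

variable {F V : Type*} [Field F] [AddCommGroup V] [Module F V]

/-- a hyperbolic frame: `e` and `f` singular, mutually orthogonal families, dual to each
other -/
structure Frame (Q : V → F) (B : LinearMap.BilinForm F V) {m : ℕ} (e f : Fin m → V) : Prop where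
  Qe : ∀ i, Q (e i) = 0
  Bee : ∀ i j, B (e i) (e j) = 0
  Qf : ∀ i, Q (f i) = 0
  Bff : ∀ i j, B (f i) (f j) = 0
  Bef : ∀ i j, B (e i) (f j) = if i = j then 1 else 0

namespace QSpace

variable {Q : V → F} {B : LinearMap.BilinForm F V} {m : ℕ} (h : QSpace Q B m)
include h

theorem Q_sum_eq_zero {κ : Type*} (s : Finset κ) (a : κ → V) (hQ : ∀ i, Q (a i) = 0)
    (hB : ∀ i j, B (a i) (a j) = 0) (c : κ → F) : Q (∑ i ∈ s, c i • a i) = 0 := by
  classical
  induction s using Finset.induction_on with
  | empty => simpa using h.zero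
  | insert k s hk ih =>
    rw [Finset.sum_insert hk, h.polar, h.smul, hQ, ih, map_smul, LinearMap.smul_apply, map_sum]
    simp [hB]

omit h in
theorem frame_B_e {e f : Fin m → V} (hf : Frame Q B e f) (x y : Fin m → F) (i : Fin m) :
    B (e i) (∑ k, x k • e k + ∑ k, y k • f k) = y i := by
  simp only [map_add, map_sum, map_smul, hf.Bee, hf.Bef, smul_eq_mul, mul_zero,
    Finset.sum_const_zero, zero_add, mul_ite, mul_one, Finset.sum_ite_eq, Finset.mem_univ,
    if_true]

theorem frame_B_f {e f : Fin m → V} (hf : Frame Q B e f) (x y : Fin m → F) (i : Fin m) :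
    B (f i) (∑ k, x k • e k + ∑ k, y k • f k) = x i := by
  have h1 : ∀ k, B (f i) (e k) = if k = i then 1 else 0 := fun k => by
    rw [h.symm, hf.Bef]
  simp only [map_add, map_sum, map_smul, hf.Bff, h1, smul_eq_mul, mul_zero,
    Finset.sum_const_zero, add_zero, mul_ite, mul_one, Finset.sum_ite_eq', Finset.mem_univ,
    if_true]

theorem frame_Q {e f : Fin m → V} (hf : Frame Q B e f) (x y : Fin m → F) :
    Q (∑ k, x k • e k + ∑ k, y k • f k) = ∑ k, x k * y k := by
  rw [h.polar, h.Q_sum_eq_zero _ e hf.Qe hf.Bee, h.Q_sum_eq_zero _ f hf.Qf hf.Bff, zero_add,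
    zero_add]
  rw [map_sum]
  refine Finset.sum_congr rfl fun j _ => ?_
  rw [map_smul, smul_eq_mul, h.symm]
  have := h.frame_B_f hf x 0 j
  simp only [Pi.zero_apply, zero_smul, Finset.sum_const_zero, add_zero] at this
  rw [this, mul_comm]

variable [FiniteDimensional F V]

/-- a dual family inside a complement `X` of the maximal totally singular `W₁` -/
theorem exists_dual {W₁ : Submodule F V} (hW₁ : MTS Q m W₁) (e : Fin m → V)
    (he : LinearIndependent F e) (heW : ∀ i, e i ∈ W₁) (X : Submodule F V)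
    (hX : W₁ ⊔ X = ⊤) :
    ∃ f' : Fin m → V, (∀ j, f' j ∈ X) ∧ ∀ i j, B (e i) (f' j) = if i = j then 1 else 0 := by
  classical
  -- span e = W₁
  have hspan : Submodule.span F (Set.range e) = W₁ := by
    apply Submodule.eq_of_le_of_finrank_eq
    · rw [Submodule.span_le]
      rintro _ ⟨i, rfl⟩
      exact heW i
    · rw [finrank_span_eq_card he, Fintype.card_fin, hW₁.1]
  let φ : V →ₗ[F] (Fin m → F) := LinearMap.pi (fun i => B (e i))
  have hker : LinearMap.ker φ ≤ W₁ := by
    intro v hv
    rw [← h.orth_eq hW₁, ← hspan, LinearMap.BilinForm.mem_orthogonal_iff]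
    intro n hn
    have hv' : ∀ i, B (e i) v = 0 := fun i => congrFun (LinearMap.mem_ker.1 hv) i
    induction hn using Submodule.span_induction with
    | mem x hx =>
      obtain ⟨i, rfl⟩ := hx
      exact hv' i
    | zero => simp
    | add x y _ _ hx hy => rw [map_add, LinearMap.add_apply, hx, hy, add_zero]
    | smul c x _ hx => rw [map_smul, LinearMap.smul_apply, hx, smul_zero]
  have hsurj : Function.Surjective φ := by
    rw [← LinearMap.range_eq_top]
    apply Submodule.eq_top_of_finrank_eq
    have h1 := LinearMap.finrank_range_add_finrank_ker φ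
    have h2 := Submodule.finrank_mono hker
    have h3 := Submodule.finrank_le (LinearMap.range φ)
    rw [finrank_fintype_fun_eq_card, Fintype.card_fin] at h3 ⊢
    rw [h.dim] at h1
    rw [hW₁.1] at h2
    omega
  have hex : ∀ j : Fin m, ∃ x ∈ X, ∀ i, B (e i) x = if i = j then 1 else 0 := by
    intro j
    obtain ⟨v, hv⟩ := hsurj (Pi.single j 1)
    have hv' : v ∈ W₁ ⊔ X := hX ▸ Submodule.mem_top
    obtain ⟨w, hw, x, hx, rfl⟩ := Submodule.mem_sup.1 hv'
    refine ⟨x, hx, fun i => ?_⟩
    have h1 := congrFun hv i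
    simp only [φ, LinearMap.pi_apply, map_add, Pi.single_apply] at h1
    rw [h.B_of_ts hW₁.2 (heW i) hw, zero_add] at h1
    exact h1
  choose f' hf'X hf' using hex
  exact ⟨f', hf'X, fun i j => hf' j i⟩

/-- a frame with `f` inside a given complementary maximal totally singular subspace -/
theorem exists_frame_in {W₁ E' : Submodule F V} (hW₁ : MTS Q m W₁) (hE' : MTS Q m E')
    (hdisj : W₁ ⊓ E' = ⊥) (e : Fin m → V) (he : LinearIndependent F e)
    (heW : ∀ i, e i ∈ W₁) : ∃ f : Fin m → V, Frame Q B e f ∧ ∀ j, f j ∈ E' := by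
  have hX : W₁ ⊔ E' = ⊤ := by
    apply Submodule.eq_top_of_finrank_eq
    have h1 := Submodule.finrank_sup_add_finrank_inf_eq W₁ E'
    rw [hdisj, finrank_bot, hW₁.1, hE'.1] at h1
    rw [h.dim]
    omega
  obtain ⟨f, hfE, hf⟩ := h.exists_dual hW₁ e he heW E' hX
  exact ⟨f, ⟨fun i => hW₁.2 _ (heW i), fun i j => h.B_of_ts hW₁.2 (heW i) (heW j),
    fun i => hE'.2 _ (hfE i), fun i j => h.B_of_ts hE'.2 (hfE i) (hfE j), hf⟩, hfE⟩

/-- every basis of a maximal totally singular subspace extends to a hyperbolic frame -/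
theorem exists_frame {W₁ : Submodule F V} (hW₁ : MTS Q m W₁) (e : Fin m → V)
    (he : LinearIndependent F e) (heW : ∀ i, e i ∈ W₁) : ∃ f : Fin m → V, Frame Q B e f := by
  classical
  obtain ⟨f', -, hf'⟩ := h.exists_dual hW₁ e he heW ⊤ (by simp)
  let c : Fin m → Fin m → F := fun j k =>
    if j < k then -B (f' j) (f' k) else if j = k then -Q (f' j) else 0
  have hxW : ∀ j, ∑ k, c j k • e k ∈ W₁ := fun j =>
    Submodule.sum_mem _ fun k _ => Submodule.smul_mem _ _ (heW k)
  have hfx : ∀ i j, B (f' i) (∑ k, c j k • e k) = c j i := by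
    intro i j
    have h1 : ∀ k, B (f' i) (e k) = if k = i then 1 else 0 := fun k => by
      rw [h.symm, hf']
    simp only [map_sum, map_smul, h1, smul_eq_mul, mul_ite, mul_one, mul_zero,
      Finset.sum_ite_eq', Finset.mem_univ, if_true]
  have hQf : ∀ j, Q (f' j + ∑ k, c j k • e k) = 0 := by
    intro j
    rw [h.polar, hW₁.2 _ (hxW j), hfx]
    simp [c]
  have key : ∀ i j, B (f' i + ∑ k, c i k • e k) (f' j + ∑ k, c j k • e k)
      = B (f' i) (f' j) + c j i + c i j := by
    intro i j
    simp only [map_add, LinearMap.add_apply]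
    rw [hfx, h.symm (∑ k, c i k • e k) (f' j), hfx, h.B_of_ts hW₁.2 (hxW i) (hxW j)]
    ring
  refine ⟨fun j => f' j + ∑ k, c j k • e k, ⟨fun i => hW₁.2 _ (heW i),
    fun i j => h.B_of_ts hW₁.2 (heW i) (heW j), hQf, ?_, ?_⟩⟩
  · intro i j
    rcases lt_trichotomy i j with hij | hij | hij
    · rw [key]
      have h1 : ¬ j < i := not_lt.2 hij.le
      have h2 : j ≠ i := hij.ne'
      simp [c, hij, h1, h2]
    · subst hij
      have h1 := h.polar (f' i + ∑ k, c i k • e k) (f' i + ∑ k, c i k • e k)
      have h2 := h.smul 2 (f' i + ∑ k, c i k • e k)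
      rw [two_smul] at h2
      rw [h2, hQf] at h1
      simpa using h1.symm
    · rw [key]
      have h1 : ¬ i < j := not_lt.2 hij.le
      have h2 : i ≠ j := hij.ne'
      simp [c, hij, h1, h2, h.symm (f' i) (f' j)]
  · intro i j
    rw [map_add, hf', h.B_of_ts hW₁.2 (heW i) (hxW j), add_zero]

end QSpace

end TwoFam
end Cfsg.Agent.Helper43
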