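/-
Helper43 library: the two families of maximal totally singular subspaces, for isometry groups
of quadratic functions on `ι → F` (parity character) and the standard hyperbolic form.
-/
import Cfsg.Agent.Helper43.TwoFam
import Cfsg.Agent.Helper43.Gram
import Cfsg.Agent.Helper43.Spinor

set_option autoImplicit false

namespace Cfsg.Agent.Helper43
namespace TwoFam

open Module Matrix

section Iso

variable {F : Type*} [Field F] {ι : Type} [Fintype ι] [DecidableEq ι]

/-- the image of a subspace under an invertible matrix -/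
noncomputable def img (g : GL ι F) (U : Submodule F (ι → F)) : Submodule F (ι → F) :=
  U.map (Matrix.toLin' (g : Matrix ι ι F))

theorem mem_img (g : GL ι F) (U : Submodule F (ι → F)) (x : ι → F) :
    x ∈ img g U ↔ ∃ y ∈ U, (g : Matrix ι ι F) *ᵥ y = x := by
  unfold img
  rw [Submodule.mem_map]
  simp only [Matrix.toLin'_apply]

theorem toLin'_gl_injective (g : GL ι F) :
    Function.Injective (Matrix.toLin' (g : Matrix ι ι F)) := by
  intro x y hxy
  simp only [Matrix.toLin'_apply] at hxy
  have := congrArg (fun z => ((g⁻¹ : GL ι F) : Matrix ι ι F) *ᵥ z) hxy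
  simpa [Matrix.mulVec_mulVec] using this

theorem img_one (U : Submodule F (ι → F)) : img (1 : GL ι F) U = U := by
  unfold img
  simp

theorem img_mul (g g' : GL ι F) (U : Submodule F (ι → F)) :
    img (g * g') U = img g (img g' U) := by
  unfold img
  rw [Units.val_mul, Matrix.toLin'_mul, Submodule.map_comp]

theorem img_inf (g : GL ι F) (U W : Submodule F (ι → F)) :
    img g (U ⊓ W) = img g U ⊓ img g W :=
  Submodule.map_inf _ (toLin'_gl_injective g)

theorem finrank_img (g : GL ι F) (U : Submodule F (ι → F)) :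
    finrank F (img g U) = finrank F U := by
  unfold img
  exact LinearEquiv.finrank_map_eq
    (LinearEquiv.ofInjectiveEndo (Matrix.toLin' (g : Matrix ι ι F)) (toLin'_gl_injective g)) U

theorem mts_img {Q : (ι → F) → F} {m : ℕ} (g : Cfsg.isometryGroup F Q)
    {U : Submodule F (ι → F)} (hU : MTS Q m U) : MTS Q m (img (g : GL ι F) U) := by
  refine ⟨by rw [finrank_img]; exact hU.1, ?_⟩
  intro x hx
  obtain ⟨y, hy, rfl⟩ := (mem_img _ _ _).1 hx
  rw [(mem_iso_iff Q g.1).1 g.2 y]
  exact hU.2 y hy

variable {Q : (ι → F) → F} {B : LinearMap.BilinForm F (ι → F)} {m : ℕ}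

/-- the parity character (Dickson invariant) of the isometry group with respect to a maximal
totally singular subspace -/
noncomputable def parityHom (h : QSpace Q B m) {E : Submodule F (ι → F)} (hE : MTS Q m E) :
    Cfsg.isometryGroup F Q →* Multiplicative (ZMod 2) where
  toFun g := Multiplicative.ofAdd
    (((m - finrank F ↥(E ⊓ img (g : GL ι F) E) : ℕ) : ZMod 2))
  map_one' := by
    rw [Subgroup.coe_one, img_one, inf_idem, hE.1]
    simp
  map_mul' g g' := by
    rw [← ofAdd_add]
    congr 1
    have h1 := h.parity hE (mts_img g hE) (mts_img (g * g') hE)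
    rw [Subgroup.coe_mul, img_mul, ← img_inf, finrank_img, ← img_mul] at h1
    have h2 := (ZMod.natCast_eq_zero_iff_even).2 h1
    push_cast at h2
    have h3 := eq_neg_of_add_eq_zero_right h2
    rw [ZMod.neg_eq_self_mod_two] at h3
    rw [Subgroup.coe_mul]
    exact h3

/-- an element of `Ω` mapping a maximal totally singular subspace to a complement forces `m`
even -/
theorem even_of_swap (h : QSpace Q B m) {E E' : Submodule F (ι → F)} (hE : MTS Q m E)
    (hEE' : E ⊓ E' = ⊥) (g : Cfsg.isometryGroup F Q)
    (hg : g ∈ commutator (Cfsg.isometryGroup F Q)) (hsw : img (g : GL ι F) E ≤ E') :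
    Even m := by
  have h1 : parityHom h hE g = 1 :=
    MonoidHom.mem_ker.mp (Abelianization.commutator_subset_ker (parityHom h hE) hg)
  have h2 : E ⊓ img (g : GL ι F) E = ⊥ := by
    rw [eq_bot_iff, ← hEE']
    exact inf_le_inf_left E hsw
  have h3 : (((m - finrank F ↥(E ⊓ img (g : GL ι F) E) : ℕ) : ZMod 2)) = 0 := by
    have : Multiplicative.ofAdd (((m - finrank F ↥(E ⊓ img (g : GL ι F) E) : ℕ) : ZMod 2))
        = Multiplicative.ofAdd 0 := h1
    exact Multiplicative.ofAdd.injective this
  rw [h2, finrank_bot, Nat.sub_zero] at h3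
  exact (ZMod.natCast_eq_zero_iff_even).1 h3

/-- elements of `Ω` preserve the family of a maximal totally singular subspace -/
theorem even_of_mem_commutator (h : QSpace Q B m) {E : Submodule F (ι → F)} (hE : MTS Q m E)
    (g : Cfsg.isometryGroup F Q) (hg : g ∈ commutator (Cfsg.isometryGroup F Q)) :
    Even (m - finrank F ↥(E ⊓ img (g : GL ι F) E)) := by
  have h1 : parityHom h hE g = 1 :=
    MonoidHom.mem_ker.mp (Abelianization.commutator_subset_ker (parityHom h hE) hg)
  have h3 : (((m - finrank F ↥(E ⊓ img (g : GL ι F) E) : ℕ) : ZMod 2)) = 0 := by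
    have : Multiplicative.ofAdd (((m - finrank F ↥(E ⊓ img (g : GL ι F) E) : ℕ) : ZMod 2))
        = Multiplicative.ofAdd 0 := h1
    exact Multiplicative.ofAdd.injective this
  exact (ZMod.natCast_eq_zero_iff_even).1 h3

end Iso

section Plus

variable (m : ℕ) (F : Type*) [Field F]

/-- the polar form of the standard hyperbolic form -/
noncomputable def plusB : LinearMap.BilinForm F (Fin m ⊕ Fin m → F) :=
  Matrix.toBilin' (gramPlus m F)

theorem plusQSpace : QSpace (Cfsg.quadFormPlus m F) (plusB m F) m where
  polar x y := by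
    have := polar_quadFormPlus m F x y
    unfold QuadraticMap.polar at this
    rw [plusB, Matrix.toBilin'_apply', ← this]
    ring
  smul c x := by
    unfold Cfsg.quadFormPlus
    rw [Finset.mul_sum]
    refine Finset.sum_congr rfl fun i _ => ?_
    simp only [Pi.smul_apply, smul_eq_mul]
    ring
  nondeg := by
    apply LinearMap.BilinForm.nondegenerate_toBilin'_of_det_ne_zero'
    rw [det_gramPlus]
    exact pow_ne_zero _ (by norm_num)
  dim := by
    rw [finrank_fintype_fun_eq_card, Fintype.card_sum, Fintype.card_fin]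
    ring

/-- the subspace `y = 0` -/
def plusE : Submodule F (Fin m ⊕ Fin m → F) where
  carrier := {v | ∀ i, v (Sum.inr i) = 0}
  add_mem' := by
    intro a b ha hb i
    rw [Pi.add_apply, ha i, hb i, add_zero]
  zero_mem' := fun i => rfl
  smul_mem' := by
    intro c a ha i
    rw [Pi.smul_apply, ha i, smul_zero]

/-- the subspace `x = 0` -/
def plusE' : Submodule F (Fin m ⊕ Fin m → F) where
  carrier := {v | ∀ i, v (Sum.inl i) = 0}
  add_mem' := by
    intro a b ha hb i
    rw [Pi.add_apply, ha i, hb i, add_zero]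
  zero_mem' := fun i => rfl
  smul_mem' := by
    intro c a ha i
    rw [Pi.smul_apply, ha i, smul_zero]

theorem mem_plusE (v : Fin m ⊕ Fin m → F) : v ∈ plusE m F ↔ ∀ i, v (Sum.inr i) = 0 := Iff.rfl

theorem mem_plusE' (v : Fin m ⊕ Fin m → F) : v ∈ plusE' m F ↔ ∀ i, v (Sum.inl i) = 0 := Iff.rfl

/-- `plusE` is the space of the first `m` coordinates -/
def plusEEquiv : plusE m F ≃ₗ[F] (Fin m → F) where
  toFun v := fun i => v.1 (Sum.inl i)
  map_add' _ _ := rfl
  map_smul' _ _ := rfl
  invFun x := ⟨Sum.elim x 0, fun _ => rfl⟩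
  left_inv v := by
    apply Subtype.ext
    funext j
    cases j with
    | inl i => rfl
    | inr i => exact (v.2 i).symm
  right_inv _ := rfl

/-- `plusE'` is the space of the last `m` coordinates -/
def plusEEquiv' : plusE' m F ≃ₗ[F] (Fin m → F) where
  toFun v := fun i => v.1 (Sum.inr i)
  map_add' _ _ := rfl
  map_smul' _ _ := rfl
  invFun x := ⟨Sum.elim 0 x, fun _ => rfl⟩
  left_inv v := by
    apply Subtype.ext
    funext j
    cases j with
    | inl i => exact (v.2 i).symm
    | inr i => rfl
  right_inv _ := rfl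

theorem mts_plusE : MTS (Cfsg.quadFormPlus m F) m (plusE m F) := by
  refine ⟨?_, ?_⟩
  · rw [(plusEEquiv m F).finrank_eq, finrank_fintype_fun_eq_card, Fintype.card_fin]
  · intro u hu
    unfold Cfsg.quadFormPlus
    refine Finset.sum_eq_zero fun i _ => ?_
    rw [hu i, mul_zero]

theorem mts_plusE' : MTS (Cfsg.quadFormPlus m F) m (plusE' m F) := by
  refine ⟨?_, ?_⟩
  · rw [(plusEEquiv' m F).finrank_eq, finrank_fintype_fun_eq_card, Fintype.card_fin]
  · intro u hu
    unfold Cfsg.quadFormPlus
    refine Finset.sum_eq_zero fun i _ => ?_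
    rw [hu i, zero_mul]

theorem plusE_inf : plusE m F ⊓ plusE' m F = ⊥ := by
  rw [eq_bot_iff]
  intro v hv
  rw [Submodule.mem_bot]
  funext j
  cases j with
  | inl i => exact hv.2 i
  | inr i => exact hv.1 i

theorem plusE_ne (hm : 1 ≤ m) : plusE m F ≠ plusE' m F := by
  intro heq
  have h1 := plusE_inf m F
  rw [← heq, inf_idem] at h1
  have h2 := (mts_plusE m F).1
  rw [h1, finrank_bot] at h2
  omega

end Plus

end TwoFam
end Cfsg.Agent.Helper43
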