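/-
Helper43 library: transfer between a hyperbolic quadratic space on `ι → F` with a hyperbolic
frame and the standard form `quadFormPlus m F`: conjugation of `GL`, isometry groups, `Ω`,
subspace stabilisers.
-/
import Cfsg.Agent.Helper43.TwoFamFrame
import Cfsg.Agent.Helper43.TwoFamPlus
import Cfsg.Prelude.Def_GeometricClasses

set_option autoImplicit false
set_option linter.unusedSectionVars false

namespace Cfsg.Agent.Helper43
namespace TwoFam

open Module Matrix

variable {F : Type*} [Field F] {ι : Type} [Fintype ι] [DecidableEq ι] {m : ℕ}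

/-- the matrix with columns `e`, `f` -/
def frameMat (e f : Fin m → ι → F) : Matrix ι (Fin m ⊕ Fin m) F :=
  Matrix.of (fun a b => Sum.elim e f b a)

omit [Fintype ι] [DecidableEq ι] in
theorem frameMat_mulVec (e f : Fin m → ι → F) (w : Fin m ⊕ Fin m → F) :
    frameMat e f *ᵥ w = ∑ k, w (Sum.inl k) • e k + ∑ k, w (Sum.inr k) • f k := by
  funext a
  simp [frameMat, Matrix.mulVec, dotProduct, Fintype.sum_sum_type, mul_comm]

section Frame

variable {Q : (ι → F) → F} {B : LinearMap.BilinForm F (ι → F)} {e f : Fin m → ι → F}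

theorem frameMat_Q (h : QSpace Q B m) (hf : Frame Q B e f) (w : Fin m ⊕ Fin m → F) :
    Q (frameMat e f *ᵥ w) = Cfsg.quadFormPlus m F w := by
  rw [frameMat_mulVec, h.frame_Q hf]
  rfl

theorem frameMat_B_e (hf : Frame Q B e f) (w : Fin m ⊕ Fin m → F) (i : Fin m) :
    B (e i) (frameMat e f *ᵥ w) = w (Sum.inr i) := by
  rw [frameMat_mulVec, QSpace.frame_B_e hf]

theorem frameMat_B_f (h : QSpace Q B m) (hf : Frame Q B e f) (w : Fin m ⊕ Fin m → F)
    (i : Fin m) : B (f i) (frameMat e f *ᵥ w) = w (Sum.inl i) := by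
  rw [frameMat_mulVec, h.frame_B_f hf]

theorem frameMat_injective (h : QSpace Q B m) (hf : Frame Q B e f) :
    Function.Injective (Matrix.toLin' (frameMat e f)) := by
  rw [← LinearMap.ker_eq_bot, LinearMap.ker_eq_bot']
  intro w hw
  rw [Matrix.toLin'_apply] at hw
  funext j
  cases j with
  | inl i =>
    rw [← frameMat_B_f h hf w i, hw]
    simp
  | inr i =>
    rw [← frameMat_B_e hf w i, hw]
    simp

theorem frameMat_exists_inv (h : QSpace Q B m) (hf : Frame Q B e f) :
    ∃ P' : Matrix (Fin m ⊕ Fin m) ι F, frameMat e f * P' = 1 ∧ P' * frameMat e f = 1 := by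
  have hdim : finrank F (Fin m ⊕ Fin m → F) = finrank F (ι → F) := by
    rw [h.dim, finrank_fintype_fun_eq_card, Fintype.card_sum, Fintype.card_fin]
    ring
  let T := LinearMap.linearEquivOfInjective (Matrix.toLin' (frameMat e f))
    (frameMat_injective h hf) hdim
  have hT : (T : (Fin m ⊕ Fin m → F) →ₗ[F] (ι → F)) = Matrix.toLin' (frameMat e f) := by
    exact LinearMap.ext fun x => LinearMap.linearEquivOfInjective_apply _ _ x
  refine ⟨LinearMap.toMatrix' (T.symm : (ι → F) →ₗ[F] (Fin m ⊕ Fin m → F)), ?_, ?_⟩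
  · rw [← LinearMap.toMatrix'_toLin' (frameMat e f), ← LinearMap.toMatrix'_comp, ← hT]
    have : (T : (Fin m ⊕ Fin m → F) →ₗ[F] (ι → F)) ∘ₗ
        (T.symm : (ι → F) →ₗ[F] (Fin m ⊕ Fin m → F)) = LinearMap.id := by
      exact LinearMap.ext fun x => by simp
    rw [this, LinearMap.toMatrix'_id]
  · rw [← LinearMap.toMatrix'_toLin' (frameMat e f), ← LinearMap.toMatrix'_comp, ← hT]
    have : (T.symm : (ι → F) →ₗ[F] (Fin m ⊕ Fin m → F)) ∘ₗ
        (T : (Fin m ⊕ Fin m → F) →ₗ[F] (ι → F)) = LinearMap.id := by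
      exact LinearMap.ext fun x => by simp
    rw [this, LinearMap.toMatrix'_id]

/-- the frame coordinates of a vector of the `e`-space vanish on the second half -/
theorem frameMat_mem_iff (h : QSpace Q B m) (hf : Frame Q B e f) {W₁ : Submodule F (ι → F)}
    (hW₁ : MTS Q m W₁) (heW : ∀ i, e i ∈ W₁) (w : Fin m ⊕ Fin m → F) :
    frameMat e f *ᵥ w ∈ W₁ ↔ w ∈ plusE m F := by
  constructor
  · intro hw i
    rw [← frameMat_B_e hf w i]
    exact h.B_of_ts hW₁.2 (heW i) hw
  · intro hw
    rw [frameMat_mulVec]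
    have : ∑ k, w (Sum.inr k) • f k = 0 :=
      Finset.sum_eq_zero fun k _ => by rw [hw k, zero_smul]
    rw [this, add_zero]
    exact Submodule.sum_mem _ fun k _ => Submodule.smul_mem _ _ (heW k)

/-- the frame coordinates of a vector of the `f`-space vanish on the first half -/
theorem frameMat_mem_iff' (h : QSpace Q B m) (hf : Frame Q B e f) {E' : Submodule F (ι → F)}
    (hE' : MTS Q m E') (hfE : ∀ i, f i ∈ E') (w : Fin m ⊕ Fin m → F) :
    frameMat e f *ᵥ w ∈ E' ↔ w ∈ plusE' m F := by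
  constructor
  · intro hw i
    rw [← frameMat_B_f h hf w i]
    exact h.B_of_ts hE'.2 (hfE i) hw
  · intro hw
    rw [frameMat_mulVec]
    have : ∑ k, w (Sum.inl k) • e k = 0 :=
      Finset.sum_eq_zero fun k _ => by rw [hw k, zero_smul]
    rw [this, zero_add]
    exact Submodule.sum_mem _ fun k _ => Submodule.smul_mem _ _ (hfE k)

end Frame

section Conj

variable {κ : Type} [Fintype κ] [DecidableEq κ] (P : Matrix ι κ F) (P' : Matrix κ ι F)
  (h1 : P * P' = 1) (h2 : P' * P = 1)

/-- conjugation by an invertible rectangular matrix, as a homomorphism of general linear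
groups -/
def conjGL : GL κ F →* GL ι F where
  toFun g := ⟨P * (g : Matrix κ κ F) * P', P * ((g⁻¹ : GL κ F) : Matrix κ κ F) * P', by
      calc P * (g : Matrix κ κ F) * P' * (P * ((g⁻¹ : GL κ F) : Matrix κ κ F) * P')
          = P * ((g : Matrix κ κ F) * (P' * P) * ((g⁻¹ : GL κ F) : Matrix κ κ F)) * P' := by
            simp only [Matrix.mul_assoc]
        _ = 1 := by
            rw [h2, Matrix.mul_one, ← Units.val_mul, mul_inv_cancel, Units.val_one,
              Matrix.mul_one, h1], by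
      calc P * ((g⁻¹ : GL κ F) : Matrix κ κ F) * P' * (P * (g : Matrix κ κ F) * P')
          = P * (((g⁻¹ : GL κ F) : Matrix κ κ F) * (P' * P) * (g : Matrix κ κ F)) * P' := by
            simp only [Matrix.mul_assoc]
        _ = 1 := by
            rw [h2, Matrix.mul_one, ← Units.val_mul, inv_mul_cancel, Units.val_one,
              Matrix.mul_one, h1]⟩
  map_one' := by
    apply Units.ext
    show P * ((1 : GL κ F) : Matrix κ κ F) * P' = 1
    rw [Units.val_one, Matrix.mul_one, h1]
  map_mul' a b := by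
    apply Units.ext
    show P * ((a * b : GL κ F) : Matrix κ κ F) * P'
      = P * (a : Matrix κ κ F) * P' * (P * (b : Matrix κ κ F) * P')
    calc P * ((a * b : GL κ F) : Matrix κ κ F) * P'
        = P * ((a : Matrix κ κ F) * 1 * (b : Matrix κ κ F)) * P' := by
          rw [Units.val_mul, Matrix.mul_one]
      _ = P * (a : Matrix κ κ F) * P' * (P * (b : Matrix κ κ F) * P') := by
          rw [← h2]
          simp only [Matrix.mul_assoc]

theorem conjGL_val (g : GL κ F) :
    ((conjGL P P' h1 h2 g : GL ι F) : Matrix ι ι F) = P * (g : Matrix κ κ F) * P' := rfl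

theorem conjGL_mulVec (g : GL κ F) (w : κ → F) :
    ((conjGL P P' h1 h2 g : GL ι F) : Matrix ι ι F) *ᵥ (P *ᵥ w)
      = P *ᵥ ((g : Matrix κ κ F) *ᵥ w) := by
  rw [conjGL_val, Matrix.mulVec_mulVec, Matrix.mulVec_mulVec, Matrix.mul_assoc, h2,
    Matrix.mul_one]

omit [DecidableEq κ] in
include h1 in
theorem mulVec_surj (x : ι → F) : P *ᵥ (P' *ᵥ x) = x := by
  rw [Matrix.mulVec_mulVec, h1, Matrix.one_mulVec]

omit [DecidableEq ι] in
include h2 in
theorem mulVec_inj {w w' : κ → F} (hw : P *ᵥ w = P *ᵥ w') : w = w' := by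
  have := congrArg (fun x => P' *ᵥ x) hw
  simpa [Matrix.mulVec_mulVec, h2] using this

variable {Q : (ι → F) → F} {Q₀ : (κ → F) → F} (hQ : ∀ w, Q (P *ᵥ w) = Q₀ w)

include hQ in
theorem conjGL_mem_iso {g : GL κ F} (hg : g ∈ Cfsg.isometryGroup F Q₀) :
    conjGL P P' h1 h2 g ∈ Cfsg.isometryGroup F Q := by
  rw [mem_iso_iff] at hg ⊢
  intro x
  rw [← mulVec_surj P P' h1 x, conjGL_mulVec, hQ, hg, hQ]

/-- conjugation as a homomorphism of isometry groups -/
def conjIso : Cfsg.isometryGroup F Q₀ →* Cfsg.isometryGroup F Q :=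
  ((conjGL P P' h1 h2).comp (Cfsg.isometryGroup F Q₀).subtype).codRestrict _
    (fun g => conjGL_mem_iso P P' h1 h2 hQ g.2)

theorem conjIso_val (g : Cfsg.isometryGroup F Q₀) :
    ((conjIso P P' h1 h2 hQ g : Cfsg.isometryGroup F Q) : GL ι F)
      = conjGL P P' h1 h2 (g : GL κ F) := rfl

include hQ in
/-- `Ω` of the standard model maps into `Ω` -/
theorem conjGL_mem_omega {g : Cfsg.isometryGroup F Q₀}
    (hg : g ∈ commutator (Cfsg.isometryGroup F Q₀)) :
    conjGL P P' h1 h2 (g : GL κ F) ∈ Cfsg.Geo.omegaGL Q := by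
  refine ⟨conjIso P P' h1 h2 hQ g, ?_, rfl⟩
  have h3 : conjIso P P' h1 h2 hQ g ∈ (commutator (Cfsg.isometryGroup F Q₀)).map
      (conjIso P P' h1 h2 hQ) := Subgroup.mem_map_of_mem _ hg
  rw [commutator_def, Subgroup.map_commutator] at h3
  exact Subgroup.commutator_mono le_top le_top h3

/-- stabilisers of corresponding subspaces correspond -/
theorem conjGL_mem_stab_iff {U : Submodule F (ι → F)} {U₀ : Submodule F (κ → F)}
    (hU : ∀ w, P *ᵥ w ∈ U ↔ w ∈ U₀) (g : GL κ F) :
    conjGL P P' h1 h2 g ∈ Cfsg.Geo.subspaceStabilizer U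
      ↔ g ∈ Cfsg.Geo.subspaceStabilizer U₀ := by
  constructor
  · intro hg w
    have := hg (P *ᵥ w)
    simp only [SetLike.mem_coe] at this
    rw [hU] at this
    rw [SetLike.mem_coe, this]
    show _ ↔ (g : Matrix κ κ F) *ᵥ w ∈ (U₀ : Set (κ → F))
    rw [SetLike.mem_coe, ← hU, ← conjGL_mulVec P P' h1 h2]
    rfl
  · intro hg x
    have := hg (P' *ᵥ x)
    simp only [SetLike.mem_coe] at this
    rw [← hU, mulVec_surj P P' h1] at this
    rw [SetLike.mem_coe, this]
    show (g : Matrix κ κ F) *ᵥ (P' *ᵥ x) ∈ U₀ ↔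
      ((conjGL P P' h1 h2 g : GL ι F) : Matrix ι ι F) *ᵥ x ∈ (U : Set (ι → F))
    rw [SetLike.mem_coe, ← hU, ← conjGL_mulVec P P' h1 h2, mulVec_surj P P' h1]

end Conj

end TwoFam
end Cfsg.Agent.Helper43
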