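/-
Helper43 library: explicit elements of `Ω⁺_{2m}(F)` (commutators of permutation matrices and of
a unipotent element) in the standard model `quadFormPlus m F`, with their action on the
standard maximal totally singular subspaces.
-/
import Cfsg.Agent.Helper43.TwoFamStd

set_option autoImplicit false
set_option linter.unusedSectionVars false

namespace Cfsg.Agent.Helper43
namespace TwoFam

open Module Matrix

variable {F : Type*} [Field F] {m : ℕ}

theorem mem_stab_iff {ι : Type} [Fintype ι] [DecidableEq ι] (U : Submodule F (ι → F))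
    (g : GL ι F) : g ∈ Cfsg.Geo.subspaceStabilizer U ↔
      ∀ v, v ∈ U ↔ (g : Matrix ι ι F) *ᵥ v ∈ U := Iff.rfl

/-- the permutation matrix of `σ` as an element of `GL` -/
def permGL {n : Type} [Fintype n] [DecidableEq n] (σ : Equiv.Perm n) : GL n F :=
  ⟨σ.permMatrix F, σ⁻¹.permMatrix F,
    by rw [← Matrix.permMatrix_mul, inv_mul_cancel, Matrix.permMatrix_one],
    by rw [← Matrix.permMatrix_mul, mul_inv_cancel, Matrix.permMatrix_one]⟩

theorem permGL_mulVec {n : Type} [Fintype n] [DecidableEq n] (σ : Equiv.Perm n) (v : n → F) :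
    ((permGL σ : GL n F) : Matrix n n F) *ᵥ v = v ∘ σ :=
  Matrix.permMatrix_mulVec σ

theorem permGL_inv_mulVec {n : Type} [Fintype n] [DecidableEq n] (σ : Equiv.Perm n)
    (v : n → F) : (((permGL σ)⁻¹ : GL n F) : Matrix n n F) *ᵥ v = v ∘ (σ⁻¹ : Equiv.Perm n) :=
  Matrix.permMatrix_mulVec σ⁻¹

/-- the action of a group commutator -/
theorem comm_mulVec {n : Type} [Fintype n] [DecidableEq n] {Q₀ : (n → F) → F}
    (a b : Cfsg.isometryGroup F Q₀) (v : n → F) :
    (((a * b * a⁻¹ * b⁻¹ : Cfsg.isometryGroup F Q₀) : GL n F) : Matrix n n F) *ᵥ v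
      = ((a : GL n F) : Matrix n n F) *ᵥ (((b : GL n F) : Matrix n n F) *ᵥ
        ((((a : GL n F)⁻¹ : GL n F) : Matrix n n F) *ᵥ
          ((((b : GL n F)⁻¹ : GL n F) : Matrix n n F) *ᵥ v))) := by
  simp only [Subgroup.coe_mul, Subgroup.coe_inv, Units.val_mul, Matrix.mulVec_mulVec,
    Matrix.mul_assoc]

theorem comm_mem_commutator {G : Type*} [Group G] (a b : G) :
    a * b * a⁻¹ * b⁻¹ ∈ commutator G := by
  rw [← commutatorElement_def]
  exact Subgroup.commutator_mem_commutator (Subgroup.mem_top _) (Subgroup.mem_top _)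

/-- a permutation of the hyperbolic pairs -/
def pairPerm (ρ : Equiv.Perm (Fin m)) : Equiv.Perm (Fin m ⊕ Fin m) := Equiv.sumCongr ρ ρ

theorem pairPerm_inl (ρ : Equiv.Perm (Fin m)) (i : Fin m) :
    pairPerm ρ (Sum.inl i) = Sum.inl (ρ i) := rfl

theorem pairPerm_inr (ρ : Equiv.Perm (Fin m)) (i : Fin m) :
    pairPerm ρ (Sum.inr i) = Sum.inr (ρ i) := rfl

theorem pairPerm_inv_inl (ρ : Equiv.Perm (Fin m)) (i : Fin m) :
    (pairPerm ρ)⁻¹ (Sum.inl i) = Sum.inl (ρ⁻¹ i) := by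
  rw [Equiv.Perm.inv_eq_iff_eq, pairPerm_inl]
  simp

theorem pairPerm_inv_inr (ρ : Equiv.Perm (Fin m)) (i : Fin m) :
    (pairPerm ρ)⁻¹ (Sum.inr i) = Sum.inr (ρ⁻¹ i) := by
  rw [Equiv.Perm.inv_eq_iff_eq, pairPerm_inr]
  simp

theorem pairPerm_mem (ρ : Equiv.Perm (Fin m)) :
    (permGL (pairPerm ρ) : GL (Fin m ⊕ Fin m) F)
      ∈ Cfsg.isometryGroup F (Cfsg.quadFormPlus m F) := by
  rw [mem_iso_iff]
  intro u
  rw [permGL_mulVec]
  unfold Cfsg.quadFormPlus
  simp only [Function.comp_apply, pairPerm_inl, pairPerm_inr]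
  exact Equiv.sum_comp ρ (fun i => u (Sum.inl i) * u (Sum.inr i))

theorem pairPerm_stab (ρ : Equiv.Perm (Fin m)) :
    (permGL (pairPerm ρ) : GL (Fin m ⊕ Fin m) F) ∈ Cfsg.Geo.subspaceStabilizer (plusE m F) := by
  rw [mem_stab_iff]
  intro v
  rw [permGL_mulVec, mem_plusE, mem_plusE]
  constructor
  · intro hv i
    exact hv (ρ i)
  · intro hv i
    have := hv (ρ⁻¹ i)
    simpa [pairPerm_inr] using this

/-- the swap of `e_i` and `f_i` -/
def tPerm (i : Fin m) : Equiv.Perm (Fin m ⊕ Fin m) := Equiv.swap (Sum.inl i) (Sum.inr i)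

theorem tPerm_mem (i : Fin m) :
    (permGL (tPerm i) : GL (Fin m ⊕ Fin m) F)
      ∈ Cfsg.isometryGroup F (Cfsg.quadFormPlus m F) := by
  rw [mem_iso_iff]
  intro u
  rw [permGL_mulVec]
  unfold Cfsg.quadFormPlus
  refine Finset.sum_congr rfl fun j _ => ?_
  simp only [Function.comp_apply, tPerm]
  by_cases hj : j = i
  · subst hj
    rw [Equiv.swap_apply_left, Equiv.swap_apply_right, mul_comm]
  · rw [Equiv.swap_apply_of_ne_of_ne (by simpa using hj) (by simp),
      Equiv.swap_apply_of_ne_of_ne (by simp) (by simpa using hj)]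

/-- F1: an element of `Ω` not stabilising the standard maximal totally singular subspace -/
theorem exists_not_stab_plusE {a b : Fin m} (hab : a ≠ b) :
    ∃ g : Cfsg.isometryGroup F (Cfsg.quadFormPlus m F),
      g ∈ commutator (Cfsg.isometryGroup F (Cfsg.quadFormPlus m F)) ∧
      (g : GL (Fin m ⊕ Fin m) F) ∉ Cfsg.Geo.subspaceStabilizer (plusE m F) := by
  obtain ⟨A, hA⟩ : ∃ A : Cfsg.isometryGroup F (Cfsg.quadFormPlus m F),
      (A : GL (Fin m ⊕ Fin m) F) = permGL (tPerm a) := ⟨⟨_, tPerm_mem a⟩, rfl⟩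
  obtain ⟨B, hB⟩ : ∃ B : Cfsg.isometryGroup F (Cfsg.quadFormPlus m F),
      (B : GL (Fin m ⊕ Fin m) F) = permGL (pairPerm (Equiv.swap a b)) :=
    ⟨⟨_, pairPerm_mem _⟩, rfl⟩
  refine ⟨A * B * A⁻¹ * B⁻¹, comm_mem_commutator _ _, ?_⟩
  rw [mem_stab_iff]
  intro hstab
  have h1 : (Pi.single (Sum.inl a) 1 : Fin m ⊕ Fin m → F) ∈ plusE m F := by
    intro i
    simp
  have h2 := (hstab _).1 h1 a
  rw [comm_mulVec, hA, hB, permGL_mulVec, permGL_mulVec, permGL_inv_mulVec,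
    permGL_inv_mulVec] at h2
  simp only [Function.comp_apply, tPerm, Equiv.swap_inv] at h2
  rw [Equiv.swap_apply_right, pairPerm_inl, Equiv.swap_apply_left,
    Equiv.swap_apply_of_ne_of_ne (by simpa using hab.symm) (by simp), pairPerm_inv_inl,
    Equiv.swap_inv, Equiv.swap_apply_right] at h2
  simp at h2

/-- the subspace of `plusE` with vanishing `a`-th coordinate -/
def plusE1 (m : ℕ) (F : Type*) [Field F] (a : Fin m) : Submodule F (Fin m ⊕ Fin m → F) where
  carrier := {v | (∀ i, v (Sum.inr i) = 0) ∧ v (Sum.inl a) = 0}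
  add_mem' := by
    intro x y hx hy
    refine ⟨fun i => ?_, ?_⟩
    · rw [Pi.add_apply, hx.1 i, hy.1 i, add_zero]
    · rw [Pi.add_apply, hx.2, hy.2, add_zero]
  zero_mem' := ⟨fun _ => rfl, rfl⟩
  smul_mem' := by
    intro c x hx
    refine ⟨fun i => ?_, ?_⟩
    · rw [Pi.smul_apply, hx.1 i, smul_zero]
    · rw [Pi.smul_apply, hx.2, smul_zero]

theorem mem_plusE1 (a : Fin m) (v : Fin m ⊕ Fin m → F) :
    v ∈ plusE1 m F a ↔ (∀ i, v (Sum.inr i) = 0) ∧ v (Sum.inl a) = 0 := Iff.rfl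

/-- F2: an element of `Ω` stabilising `plusE` but not its hyperplane `plusE1 a` -/
theorem exists_stab_plusE_not_plusE1 {a b c : Fin m} (hab : a ≠ b) (hac : a ≠ c)
    (hbc : b ≠ c) :
    ∃ g : Cfsg.isometryGroup F (Cfsg.quadFormPlus m F),
      g ∈ commutator (Cfsg.isometryGroup F (Cfsg.quadFormPlus m F)) ∧
      (g : GL (Fin m ⊕ Fin m) F) ∈ Cfsg.Geo.subspaceStabilizer (plusE m F) ∧
      (g : GL (Fin m ⊕ Fin m) F) ∉ Cfsg.Geo.subspaceStabilizer (plusE1 m F a) := by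
  obtain ⟨A, hA⟩ : ∃ A : Cfsg.isometryGroup F (Cfsg.quadFormPlus m F),
      (A : GL (Fin m ⊕ Fin m) F) = permGL (pairPerm (Equiv.swap a b)) :=
    ⟨⟨_, pairPerm_mem _⟩, rfl⟩
  obtain ⟨B, hB⟩ : ∃ B : Cfsg.isometryGroup F (Cfsg.quadFormPlus m F),
      (B : GL (Fin m ⊕ Fin m) F) = permGL (pairPerm (Equiv.swap b c)) :=
    ⟨⟨_, pairPerm_mem _⟩, rfl⟩
  refine ⟨A * B * A⁻¹ * B⁻¹, comm_mem_commutator _ _, ?_, ?_⟩
  · simp only [Subgroup.coe_mul, Subgroup.coe_inv, hA, hB]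
    exact mul_mem (mul_mem (mul_mem (pairPerm_stab _) (pairPerm_stab _))
      (inv_mem (pairPerm_stab _))) (inv_mem (pairPerm_stab _))
  · rw [mem_stab_iff]
    intro hstab
    have h1 : (Pi.single (Sum.inl b) 1 : Fin m ⊕ Fin m → F) ∈ plusE1 m F a := by
      refine ⟨fun i => by simp, ?_⟩
      simp [hab]
    have h2 := ((hstab _).1 h1).2
    rw [comm_mulVec, hA, hB, permGL_mulVec, permGL_mulVec, permGL_inv_mulVec,
      permGL_inv_mulVec] at h2
    simp only [Function.comp_apply] at h2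
    rw [pairPerm_inl, Equiv.swap_apply_left, pairPerm_inl, Equiv.swap_apply_left,
      pairPerm_inv_inl, Equiv.swap_inv, Equiv.swap_apply_of_ne_of_ne hac.symm hbc.symm,
      pairPerm_inv_inl, Equiv.swap_inv, Equiv.swap_apply_right] at h2
    simp at h2

/-- the nilpotent part of the unipotent element `e_a ↦ e_a`, `f_b ↦ f_b + e_a`,
`f_a ↦ f_a - e_b` -/
def uNil (m : ℕ) (F : Type*) [Field F] (a b : Fin m) :
    Matrix (Fin m ⊕ Fin m) (Fin m ⊕ Fin m) F :=
  Matrix.single (Sum.inl a) (Sum.inr b) 1 - Matrix.single (Sum.inl b) (Sum.inr a) 1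

theorem uNil_mul_self (a b : Fin m) : uNil m F a b * uNil m F a b = 0 := by
  unfold uNil
  simp [Matrix.sub_mul, Matrix.mul_sub, Matrix.single_mul_single_of_ne]

/-- the unipotent element -/
def uGL (a b : Fin m) : GL (Fin m ⊕ Fin m) F :=
  ⟨1 + uNil m F a b, 1 - uNil m F a b, by
    have : (1 + uNil m F a b) * (1 - uNil m F a b) = 1 - uNil m F a b * uNil m F a b := by
      noncomm_ring
    rw [this, uNil_mul_self, sub_zero], by
    have : (1 - uNil m F a b) * (1 + uNil m F a b) = 1 - uNil m F a b * uNil m F a b := by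
      noncomm_ring
    rw [this, uNil_mul_self, sub_zero]⟩

theorem uNil_mulVec (a b : Fin m) (v : Fin m ⊕ Fin m → F) (x : Fin m ⊕ Fin m) :
    (uNil m F a b *ᵥ v) x = (if x = Sum.inl a then v (Sum.inr b) else 0)
      - (if x = Sum.inl b then v (Sum.inr a) else 0) := by
  unfold uNil
  rw [Matrix.sub_mulVec, Matrix.single_mulVec, Matrix.single_mulVec, Pi.sub_apply,
    Function.update_apply, Function.update_apply]
  simp

theorem uGL_mulVec (a b : Fin m) (v : Fin m ⊕ Fin m → F) (x : Fin m ⊕ Fin m) :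
    (((uGL a b : GL (Fin m ⊕ Fin m) F) : Matrix _ _ F) *ᵥ v) x
      = v x + ((if x = Sum.inl a then v (Sum.inr b) else 0)
        - (if x = Sum.inl b then v (Sum.inr a) else 0)) := by
  show ((1 + uNil m F a b) *ᵥ v) x = _
  rw [Matrix.add_mulVec, Matrix.one_mulVec, Pi.add_apply, uNil_mulVec]

theorem uGL_inv_mulVec (a b : Fin m) (v : Fin m ⊕ Fin m → F) (x : Fin m ⊕ Fin m) :
    ((((uGL a b : GL (Fin m ⊕ Fin m) F)⁻¹ : GL (Fin m ⊕ Fin m) F) : Matrix _ _ F) *ᵥ v) x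
      = v x - ((if x = Sum.inl a then v (Sum.inr b) else 0)
        - (if x = Sum.inl b then v (Sum.inr a) else 0)) := by
  show ((1 - uNil m F a b) *ᵥ v) x = _
  rw [Matrix.sub_mulVec, Matrix.one_mulVec, Pi.sub_apply, uNil_mulVec]

theorem uGL_mem (a b : Fin m) :
    (uGL a b : GL (Fin m ⊕ Fin m) F) ∈ Cfsg.isometryGroup F (Cfsg.quadFormPlus m F) := by
  rw [mem_iso_iff]
  intro u
  unfold Cfsg.quadFormPlus
  simp only [uGL_mulVec, Sum.inl.injEq, reduceCtorEq, if_false, sub_zero, add_zero]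
  simp only [add_mul, sub_mul, ite_mul, zero_mul, Finset.sum_add_distrib, Finset.sum_sub_distrib,
    Finset.sum_ite_eq', Finset.mem_univ, if_true]
  ring

theorem uGL_stab (a b : Fin m) :
    (uGL a b : GL (Fin m ⊕ Fin m) F) ∈ Cfsg.Geo.subspaceStabilizer (plusE m F) := by
  rw [mem_stab_iff]
  intro v
  rw [mem_plusE, mem_plusE]
  simp only [uGL_mulVec, reduceCtorEq, if_false, sub_zero, add_zero]

/-- F3: an element of `Ω` stabilising `plusE` but not `plusE'` -/
theorem exists_stab_plusE_not_plusE' {a b c d : Fin m} (hab : a ≠ b)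
    (had : a ≠ d) (hbd : b ≠ d) (hcd : c ≠ d) :
    ∃ g : Cfsg.isometryGroup F (Cfsg.quadFormPlus m F),
      g ∈ commutator (Cfsg.isometryGroup F (Cfsg.quadFormPlus m F)) ∧
      (g : GL (Fin m ⊕ Fin m) F) ∈ Cfsg.Geo.subspaceStabilizer (plusE m F) ∧
      (g : GL (Fin m ⊕ Fin m) F) ∉ Cfsg.Geo.subspaceStabilizer (plusE' m F) := by
  obtain ⟨A, hA⟩ : ∃ A : Cfsg.isometryGroup F (Cfsg.quadFormPlus m F),
      (A : GL (Fin m ⊕ Fin m) F) = permGL (pairPerm (Equiv.swap a c * Equiv.swap b d)) :=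
    ⟨⟨_, pairPerm_mem _⟩, rfl⟩
  obtain ⟨B, hB⟩ : ∃ B : Cfsg.isometryGroup F (Cfsg.quadFormPlus m F),
      (B : GL (Fin m ⊕ Fin m) F) = uGL a b := ⟨⟨_, uGL_mem a b⟩, rfl⟩
  refine ⟨A * B * A⁻¹ * B⁻¹, comm_mem_commutator _ _, ?_, ?_⟩
  · simp only [Subgroup.coe_mul, Subgroup.coe_inv, hA, hB]
    exact mul_mem (mul_mem (mul_mem (pairPerm_stab _) (uGL_stab a b))
      (inv_mem (pairPerm_stab _))) (inv_mem (uGL_stab a b))
  · rw [mem_stab_iff]
    intro hstab
    have h1 : (Pi.single (Sum.inr a) 1 : Fin m ⊕ Fin m → F) ∈ plusE' m F := by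
      intro i
      simp
    have h2 := (hstab _).1 h1 b
    have hρb : (Equiv.swap a c * Equiv.swap b d) b = d := by
      rw [Equiv.Perm.mul_apply, Equiv.swap_apply_left, Equiv.swap_apply_of_ne_of_ne had.symm
        hcd.symm]
    have hρd : (Equiv.swap a c * Equiv.swap b d)⁻¹ d = b := by
      rw [Equiv.Perm.inv_eq_iff_eq, hρb]
    rw [comm_mulVec, hA, hB, permGL_mulVec, Function.comp_apply, pairPerm_inl, hρb, uGL_mulVec,
      permGL_inv_mulVec, Function.comp_apply, pairPerm_inv_inl, hρd, uGL_inv_mulVec] at h2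
    simp [hab.symm, had.symm, hbd.symm] at h2

end TwoFam
end Cfsg.Agent.Helper43
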