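/-
Helper43 library: bridge from `Cfsg.Geo.IsNondegenerateQuadraticForm` to the abstract `QSpace`,
and between subspace stabilisers and images of subspaces.
-/
import Cfsg.Agent.Helper43.TwoFamElts

set_option autoImplicit false
set_option linter.unusedSectionVars false

namespace Cfsg.Agent.Helper43
namespace TwoFam

open Module Matrix

variable {F : Type*} [Field F] {ι : Type} [Fintype ι] [DecidableEq ι]

/-- the polar form of a non-degenerate quadratic form as a bilinear form -/
def polarB (Q : (ι → F) → F) (hQ : Cfsg.Geo.IsNondegenerateQuadraticForm Q) :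
    LinearMap.BilinForm F (ι → F) :=
  LinearMap.mk₂ F (QuadraticMap.polar Q) hQ.polar_bilinear.add_left
    hQ.polar_bilinear.smul_left hQ.polar_bilinear.add_right hQ.polar_bilinear.smul_right

theorem polarB_apply (Q : (ι → F) → F) (hQ : Cfsg.Geo.IsNondegenerateQuadraticForm Q)
    (x y : ι → F) : polarB Q hQ x y = QuadraticMap.polar Q x y := rfl

theorem qspace_of (Q : (ι → F) → F) (hQ : Cfsg.Geo.IsNondegenerateQuadraticForm Q) {m : ℕ}
    (hm : Fintype.card ι = 2 * m) : QSpace Q (polarB Q hQ) m where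
  polar x y := by
    rw [polarB_apply]
    unfold QuadraticMap.polar
    ring
  smul c x := by
    rw [hQ.smul, pow_two]
  nondeg := by
    constructor
    · intro x hx
      by_contra hne
      obtain ⟨-, y, hy⟩ := hQ.nondegenerate x hne
      exact hy (hx y)
    · intro y hy
      by_contra hne
      obtain ⟨⟨x, hx⟩, -⟩ := hQ.nondegenerate y hne
      exact hx (hy x)
  dim := by
    rw [finrank_fintype_fun_eq_card, hm]

theorem img_eq_of_mem_stab {U : Submodule F (ι → F)} {g : GL ι F}
    (hg : g ∈ Cfsg.Geo.subspaceStabilizer U) : img g U = U := by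
  rw [mem_stab_iff] at hg
  apply le_antisymm
  · intro x hx
    obtain ⟨y, hy, rfl⟩ := (mem_img _ _ _).1 hx
    exact (hg y).1 hy
  · intro x hx
    rw [mem_img]
    refine ⟨((g⁻¹ : GL ι F) : Matrix ι ι F) *ᵥ x, ?_, ?_⟩
    · rw [hg]
      simpa [Matrix.mulVec_mulVec] using hx
    · simp [Matrix.mulVec_mulVec]

theorem mem_stab_of_img_eq {U : Submodule F (ι → F)} {g : GL ι F} (hg : img g U = U) :
    g ∈ Cfsg.Geo.subspaceStabilizer U := by
  rw [mem_stab_iff]
  intro v
  constructor
  · intro hv
    rw [← hg, mem_img]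
    exact ⟨v, hv, rfl⟩
  · intro hv
    rw [← hg, mem_img] at hv
    obtain ⟨y, hy, hyv⟩ := hv
    have : y = v := toLin'_gl_injective g (by simpa [Matrix.toLin'_apply] using hyv)
    exact this ▸ hy

theorem mem_omegaGL_iff (Q : (ι → F) → F) (g : GL ι F) :
    g ∈ Cfsg.Geo.omegaGL Q ↔
      ∃ x : Cfsg.isometryGroup F Q, x ∈ commutator (Cfsg.isometryGroup F Q) ∧
        (x : GL ι F) = g := Iff.rfl

end TwoFam
end Cfsg.Agent.Helper43
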